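import Mathlib
import Cfsg.Agent.FH.Tower
import Cfsg.Agent.FH.Quot
import Cfsg.Agent.PLocal.SigCoprime
import Cfsg.Agent.Solv.NilpAmb
import Cfsg.Agent.FT.B12Pi
import Cfsg.Agent.FT.B11Base

/-! S1917 (Martineau-Pettet): definitions and basic API.  Everything lives in an ambient group `Γ`;
`A` is an elementary abelian `r`-group normalizing the `r'`-group `G`. -/

set_option autoImplicit false
set_option linter.unusedSectionVars false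
set_option linter.unusedVariables false

namespace Cfsg.Agent.MP

open Cfsg Cfsg.Agent.FT Cfsg.Agent.PLocal Subgroup
open Cfsg.Agent.PLocal.Amb (IsSyl)
open Cfsg.Agent.PLocal.CommMod (centMod)
open scoped commutatorElement

universe u

variable {Γ : Type u} [Group Γ]

/-- `X` is an `A`-invariant subgroup of `G`. -/
structure Iv (A G X : Subgroup Γ) : Prop where
  le : X ≤ G
  n : A ≤ 𝒩(X)

/-- The hypothesis of the theorem. -/
structure Hy (r : ℕ) (A G : Subgroup Γ) : Prop where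
  pr : r.Prime
  el : IsElementaryAbelian r A
  inv : A ≤ 𝒩(G)
  nd : ¬ r ∣ Nat.card G
  u2 : ∀ p : ℕ, p.Prime → ∀ P Q : Subgroup Γ, Iv A G P → Iv A G Q → IsPGroup p P → IsPGroup p Q →
    IsPGroup p ↥(P ⊔ Q)
  odd : ¬ 2 ∣ Nat.card ↥(G ⊓ 𝒞(A))

/-- The invariant Sylow `p`-subgroup. -/
def sy (A G : Subgroup Γ) (p : ℕ) : Subgroup Γ := sSup {P | Iv A G P ∧ IsPGroup p P}

/-- `B` is a subgroup of order `r` of `A`. -/
structure Ln (r : ℕ) (A B : Subgroup Γ) : Prop where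
  le : B ≤ A
  card : Nat.card B = r

/-- Rank two. -/
structure H2 (r : ℕ) (A G : Subgroup Γ) : Prop extends Hy r A G where
  card : Nat.card A = r ^ 2

/-- A minimal counterexample. -/
structure M0 (r : ℕ) (A G : Subgroup Γ) : Prop extends Hy r A G where
  ns : ¬ Group.IsSolvable G
  sub : ∀ H : Subgroup Γ, Iv A G H → H ≠ G → Group.IsSolvable H
  nn : ∀ N : Subgroup Γ, Iv A G N → G ≤ 𝒩(N) → N = ⊥ ∨ N = G

/-- A minimal counterexample of rank two. -/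
structure Mn (r : ℕ) (A G : Subgroup Γ) : Prop extends M0 r A G where
  card : Nat.card A = r ^ 2
  fa : ∀ B : Subgroup Γ, Ln r A B → ¬ G ≤ 𝒞(B)

/-- `O_{2'}(H)`. -/
abbrev oc (H : Subgroup Γ) : Subgroup Γ := piCoreOf {2}ᶜ H

variable {r p q : ℕ} {A G X Y H B B' P Q E W N U R K : Subgroup Γ}

theorem Mn.h2 (h : Mn r A G) : H2 r A G := ⟨h.toHy, h.card⟩

namespace Iv

theorem inf (h : Iv A G X) (h' : A ≤ 𝒩(Y)) : Iv A G (X ⊓ Y) :=
  ⟨inf_le_left.trans h.le, norm_inf h.n h'⟩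

theorem sup (h : Iv A G X) (h' : Iv A G Y) : Iv A G (X ⊔ Y) :=
  ⟨sup_le h.le h'.le, norm_sup h.n h'.n⟩

theorem comm (h : Iv A G X) (h' : Iv A G Y) : Iv A G ⁅X, Y⁆ :=
  ⟨(comm_le_sup X Y).trans (sup_le h.le h'.le), norm_comm h.n h'.n⟩

theorem cent (h : Iv A G X) (h' : Iv A G Y) : Iv A G (X ⊓ 𝒞(Y)) := h.inf (norm_cent h'.n)

theorem norm (h : Iv A G X) (h' : Iv A G Y) : Iv A G (X ⊓ 𝒩(Y)) := h.inf (norm_norm h'.n)

theorem cm (h : Iv A G X) (h' : A ≤ 𝒩(Y)) (h'' : A ≤ 𝒩(N)) : Iv A G (X ⊓ centMod Y N) :=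
  h.inf (FH.norm_centMod h' h'')

theorem of_le (h : Iv A H X) (h' : H ≤ G) : Iv A G X := ⟨h.le.trans h', h.n⟩

theorem tom (h : Iv A G X) (h' : X ≤ H) : Iv A H X := ⟨h', h.n⟩

theorem pcore (h : Iv A G X) (p : ℕ) : Iv A G (pCoreOf p X) :=
  ⟨(Amb.pCoreOf_le p X).trans h.le, h.n.trans (Amb.normalizer_le_normalizer_pCoreOf p X)⟩

theorem omega (h : Iv A G X) (p : ℕ) : Iv A G (omegaOne p X) :=
  ⟨(omegaOne_le X).trans h.le, h.n.trans (normalizer_le_normalizer_omegaOne X)⟩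

theorem bot : Iv A G ⊥ := ⟨bot_le, by rw [norm_bot]; exact le_top⟩

end Iv

theorem norm_oc [Finite Γ] (h : X ≤ 𝒩(H)) : X ≤ 𝒩(oc H) := fun g hg => by
  rw [← cj_eq_iff, ← B11.piCoreOf_cj, cj_of_mem_normalizer (h hg)]

theorem Iv.oc [Finite Γ] (h : Iv A G X) : Iv A G (oc X) :=
  ⟨(B7.piCoreOf_le _ X).trans h.le, norm_oc h.n⟩

theorem oc_le (H : Subgroup Γ) : oc H ≤ H := B7.piCoreOf_le _ H

theorem oc_odd [Finite Γ] (H : Subgroup Γ) : ¬ 2 ∣ Nat.card (oc H) :=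
  (B12.isPi_compl_singleton_iff Nat.prime_two).1 (B12.piCoreOf_isPi _ H)

theorem le_oc (h1 : X ≤ H) (h2 : H ≤ 𝒩(X)) (h : ¬ 2 ∣ Nat.card X) : X ≤ oc H :=
  B12.le_piCoreOf ⟨h1, h2⟩ ((B12.isPi_compl_singleton_iff Nat.prime_two).2 h)

theorem pg_le (h : IsPGroup p P) (h' : X ≤ P) : IsPGroup p X := h.to_le h'

theorem pg_inf (h : IsPGroup p P) (X : Subgroup Γ) : IsPGroup p ↥(P ⊓ X) := h.to_le inf_le_left

theorem pg_comm (h : IsPGroup p P) (h' : X ≤ 𝒩(P)) : IsPGroup p ↥⁅P, X⁆ := h.to_le (comm_le_left h')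

variable [Finite Γ]

theorem pq_bot (hp : p.Prime) (hq : q.Prime) (h : p ≠ q) (hP : IsPGroup p P) (hQ : IsPGroup q Q) :
    P ⊓ Q = ⊥ :=
  FH.pgroup_eq_bot hp (pg_inf hP Q) inf_le_right (FH.not_dvd_pgroup hp hq h hQ)

/-- `X = [X, Y] C_X(Y)` for a coprime action on a solvable group. -/
theorem split (h : Y ≤ 𝒩(X)) (hc : (Nat.card Y).Coprime (Nat.card X))
    (hs : Group.IsSolvable Y ∨ Group.IsSolvable X) : X ≤ ⁅X, Y⁆ ⊔ (X ⊓ 𝒞(Y)) :=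
  (Solv.coprime_commutator_sup_centralizer Y X h hc hs).ge

theorem le_of_split (h : Y ≤ 𝒩(X)) (hc : (Nat.card Y).Coprime (Nat.card X))
    (hs : Group.IsSolvable Y ∨ Group.IsSolvable X) (h1 : ⁅X, Y⁆ ≤ K) (h2 : X ⊓ 𝒞(Y) ≤ K) : X ≤ K :=
  (split h hc hs).trans (sup_le h1 h2)

/-- A solvable group contained in its derived subgroup is trivial. -/
theorem eq_bot_of_le_der (hs : Group.IsSolvable X) (h : X ≤ ⁅X, X⁆) : X = ⊥ := by
  by_contra h0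
  exact (Solv.commutator_lt_of_isSolvable hs h0).not_ge h

namespace Hy

variable (h : Hy r A G)
include h

theorem top : Iv A G G := ⟨le_rfl, h.inv⟩

theorem nA (hB : B ≤ A) : A ≤ 𝒩(B) := Sig.ea_norm h.el hB

theorem cA (hB : B ≤ A) : A ≤ 𝒞(B) := Sig.ea_le_cent h.el hB

theorem ndv (hX : X ≤ G) : ¬ r ∣ Nat.card X := fun hd => h.nd (hd.trans (card_dvd_of_le hX))

theorem cop (hB : B ≤ A) (hX : X ≤ G) : (Nat.card B).Coprime (Nat.card X) :=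
  haveI := Fact.mk h.pr
  Sig.ea_cop (isEA_mono h.el hB) (h.ndv hX)

theorem sA (hB : B ≤ A) : Group.IsSolvable B :=
  haveI := Fact.mk h.pr
  Sig.ea_solv (isEA_mono h.el hB)

theorem cl (hX : Iv A G X) (hB : B ≤ A) : Iv A G (X ⊓ 𝒞(B)) := hX.inf (norm_cent (h.nA hB))

theorem star (hX : Iv A G X) (hB : B ≤ A) : Iv A G ⁅X, B⁆ :=
  ⟨(comm_le_left (hB.trans hX.n)).trans hX.le, norm_comm hX.n (h.nA hB)⟩

theorem star_le (hX : Iv A G X) (hB : B ≤ A) : ⁅X, B⁆ ≤ X := comm_le_left (hB.trans hX.n)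

theorem sp (hX : Iv A G X) (hB : B ≤ A) : X ≤ ⁅X, B⁆ ⊔ (X ⊓ 𝒞(B)) :=
  split (hB.trans hX.n) (h.cop hB hX.le) (Or.inl (h.sA hB))

theorem cc (hX : Iv A G X) (hB : B ≤ A) : ⁅X, B⁆ ≤ ⁅⁅X, B⁆, B⁆ :=
  FH.comm_comm_eq (hB.trans hX.n) (h.cop hB hX.le) (Or.inl (h.sA hB))

theorem sub (hH : Iv A G H) : Hy r A H :=
  ⟨h.pr, h.el, hH.n, h.ndv hH.le, fun p hp P Q hP hQ => h.u2 p hp P Q (hP.of_le hH.le) (hQ.of_le hH.le),
    fun hd => h.odd (hd.trans (card_dvd_of_le (inf_le_inf_right _ hH.le)))⟩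

theorem sy_mem (hp : p.Prime) : Iv A G (sy A G p) ∧ IsPGroup p (sy A G p) := by
  obtain ⟨P, hP, hm⟩ := (wellFounded_gt (α := Subgroup Γ)).has_min
    {P | Iv A G P ∧ IsPGroup p P} ⟨⊥, Iv.bot, IsPGroup.of_bot⟩
  have : sy A G p = P := le_antisymm (sSup_le fun Q hQ => by
    by_contra hn
    exact hm (Q ⊔ P) ⟨hQ.1.sup hP.1, h.u2 p hp _ _ hQ.1 hP.1 hQ.2 hP.2⟩
      (right_lt_sup.2 hn)) (le_sSup hP)
  rw [this]
  exact hP

theorem sy_iv (hp : p.Prime) : Iv A G (sy A G p) := (h.sy_mem hp).1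

theorem sy_pg (hp : p.Prime) : IsPGroup p (sy A G p) := (h.sy_mem hp).2

omit h in
theorem le_sy (hP : Iv A G P) (hp : IsPGroup p P) : P ≤ sy A G p := le_sSup ⟨hP, hp⟩

theorem syl (hp : p.Prime) (hH : Iv A G H) : IsSyl p (H ⊓ sy A G p) H := by
  haveI := Fact.mk hp
  obtain ⟨S, hS, hA⟩ := Sig.exists_invSyl hH.n (h.cop le_rfl hH.le) (Or.inl (h.sA le_rfl)) p
  have e : H ⊓ sy A G p = S := hS.eq ((h.sy_pg hp).to_le inf_le_right)
    (le_inf hS.le (le_sy ⟨hS.le.trans hH.le, hA⟩ hS.pgrp)) inf_le_left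
  rw [e]
  exact hS

theorem syl_top (hp : p.Prime) : IsSyl p (sy A G p) G := by
  have := h.syl hp h.top
  rwa [inf_eq_right.2 (h.sy_iv hp).le] at this

theorem sy_sub (hp : p.Prime) (hH : Iv A G H) : sy A H p = H ⊓ sy A G p :=
  le_antisymm (le_inf ((h.sub hH).sy_iv hp).le
    (le_sy (((h.sub hH).sy_iv hp).of_le hH.le) ((h.sub hH).sy_pg hp)))
    (le_sy ⟨inf_le_left, (hH.inf (h.sy_iv hp).n).n⟩ ((h.sy_pg hp).to_le inf_le_right))

/-- An invariant subgroup is generated by its invariant Sylow subgroups. -/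
theorem le_of_sy (hH : Iv A G H) (hK : ∀ p : ℕ, p.Prime → H ⊓ sy A G p ≤ K) : H ≤ K := by
  by_contra hn
  obtain ⟨p, P, hp, h1, h2, h3, h4⟩ :=
    FH.exists_inv_syl hH.n (h.cop le_rfl hH.le) (Or.inl (h.sA le_rfl)) hn
  exact h4 ((le_inf h2 (le_sy ⟨h2.trans hH.le, h3⟩ h1)).trans (hK p hp))

theorem two_bot (hE : E ≤ G) (h2 : IsPGroup 2 E) : E ⊓ 𝒞(A) = ⊥ :=
  FH.pgroup_eq_bot Nat.prime_two (pg_inf h2 _) (inf_le_inf_right _ hE) h.odd

theorem two_star (hE : Iv A G E) (h2 : IsPGroup 2 E) : E ≤ ⁅E, A⁆ := by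
  have := h.sp hE le_rfl
  rwa [h.two_bot hE.le h2, sup_bot_eq] at this

omit h in
theorem iv_cj (hX : Iv A G X) {c : Γ} (hc : c ∈ G ⊓ 𝒞(A)) : Iv A G (cj c X) :=
  ⟨cj_le_of_mem hc.1 hX.le, by
    rw [← cj_normalizer, ← cj_of_mem_centralizer hc.2]; exact cj_mono c hX.n⟩

/-- `C_G(A)` normalizes the invariant Sylow subgroups. -/
theorem c_norm (hp : p.Prime) : G ⊓ 𝒞(A) ≤ 𝒩(sy A G p) := fun c hc =>
  mem_normalizer_of_cj_le (le_sy (iv_cj (h.sy_iv hp) hc) (isPGroup_cj.2 (h.sy_pg hp)))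

/-- If an invariant `q`-group normalizes a `p`-group `R`, it centralizes `C_R(A)`. -/
theorem u1 (hp : p.Prime) (hq : q.Prime) (hne : p ≠ q) (hU : Iv A G U) (hUq : IsPGroup q U)
    (hR : R ≤ G) (hRp : IsPGroup p R) (hn : U ≤ 𝒩(R)) : R ⊓ 𝒞(A) ≤ 𝒞(U) := by
  rw [← comm_eq_bot_iff, eq_bot_iff, ← pq_bot hp hq hne hRp (h.sy_pg hq)]
  refine le_inf ((commutator_mono inf_le_left le_rfl).trans (comm_le_left hn)) ?_
  exact (commutator_mono (inf_le_inf_right _ hR) (le_sy hU hUq)).trans (comm_le_right (h.c_norm hq))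

section quot

variable {L : Subgroup Γ} [(N.subgroupOf L).Normal]

theorem qt_le_sy (hp : p.Prime) (hG : G ≤ L) (hA : A ≤ L) (hN : Iv A G N)
    {P : Subgroup (↥L ⧸ N.subgroupOf L)} (hP : Iv (qt L N A) (qt L N G) P) (hPp : IsPGroup p P) :
    P ≤ qt L N (sy A G p) := by
  haveI := Fact.mk hp
  have hNL := hN.le.trans hG
  have h1 : qtc L N P ≤ G := by
    have := Qt.le_sup_of_le (Qt.qtc_le P) ((Qt.qt_qtc P).le.trans hP.le)
    rwa [sup_eq_right.2 hN.le] at this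
  have h2 : Iv A G (qtc L N P) := ⟨h1, Qt.le_norm_qtc hA hP.n⟩
  have h3 := (h.syl hp h2).sup_eq_of_pRes_le (N := N) (Amb.pRes_le_of_pow fun g hg => by
    obtain ⟨hgL, hg⟩ := Qt.mem_qtc.1 hg
    obtain ⟨k, hk⟩ := Amb.isPGroup_iff.1 hPp _ hg
    refine ⟨k, ?_⟩
    have := (Qt.mk_eq_one (N := N) (x := (⟨g, hgL⟩ : L) ^ p ^ k)).1 (by
      rw [QuotientGroup.mk_pow]; exact hk)
    exact this) (Qt.le_qtc hNL P)
  rw [← Qt.qt_qtc P, ← h3, Qt.qt_sup_left hNL (inf_le_left.trans (Qt.qtc_le P))]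
  exact Qt.mono inf_le_right

theorem qt (hG : G ≤ L) (hA : A ≤ L) (hN : Iv A G N) : Hy r (qt L N A) (qt L N G) := by
  refine ⟨h.pr, isEA_map (isEA_subgroupOf h.el L) _, Qt.norm h.inv,
    fun hd => h.nd (hd.trans (Qt.card_dvd hG)), fun p hp P Q hP hQ h1 h2 => ?_, fun hd => ?_⟩
  · exact (Qt.pgroup ((h.sy_iv hp).le.trans hG) (h.sy_pg hp)).to_le
      (sup_le (h.qt_le_sy hp hG hA hN hP h1) (h.qt_le_sy hp hG hA hN hQ h2))
  · rw [← FH.qt_inf_cent_eq hA hG h.inv (hN.le.trans hG) (h.cop le_rfl le_rfl)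
      (Or.inl (h.sA le_rfl))] at hd
    exact h.odd (hd.trans (Qt.card_dvd (inf_le_left.trans hG)))

theorem qt_card (hA : A ≤ L) (hN : N ≤ G) (hB : B ≤ A) : Nat.card (FT.qt L N B) = Nat.card B :=
  Qt.card_of_disjoint (hB.trans hA) (by
    rw [inf_comm]; exact inf_eq_bot_of_coprime (h.cop hB hN))

theorem qt_ln (hA : A ≤ L) (hN : N ≤ G) (hB : Ln r A B) : Ln r (FT.qt L N A) (FT.qt L N B) :=
  ⟨Qt.mono hB.le, (h.qt_card hA hN hB.le).trans hB.card⟩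

omit h in
theorem qt_iv (hX : Iv A G X) : Iv (FT.qt L N A) (FT.qt L N G) (FT.qt L N X) :=
  ⟨Qt.mono hX.le, Qt.norm hX.n⟩

theorem qt_cl (hG : G ≤ L) (hA : A ≤ L) (hN : N ≤ G) (hX : Iv A G X) (hB : B ≤ A) :
    FT.qt L N (X ⊓ 𝒞(B)) = FT.qt L N X ⊓ 𝒞(FT.qt L N B) :=
  FH.qt_inf_cent_eq (hB.trans hA) (hX.le.trans hG) (hB.trans hX.n) (hN.trans hG) (h.cop hB hX.le)
    (Or.inl (h.sA hB))

end quot

end Hy

theorem H2.sub (h : H2 r A G) (hH : Iv A G H) : H2 r A H := ⟨h.toHy.sub hH, h.card⟩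

theorem H2.qt (h : H2 r A G) {L : Subgroup Γ} [(N.subgroupOf L).Normal] (hG : G ≤ L) (hA : A ≤ L)
    (hN : Iv A G N) : H2 r (qt L N A) (qt L N G) :=
  ⟨h.toHy.qt hG hA hN, (h.qt_card hA hN.le le_rfl).trans h.card⟩

theorem nrm (hX : X ≤ 𝒩(N)) (hY : Y ≤ 𝒩(N)) : (N.subgroupOf (X ⊔ Y)).Normal :=
  Amb.normal_subgroupOf' (sup_le hX hY)

/-- The quotient by `O_p(K)` has trivial `p`-core. -/
theorem qt_pcore {L : Subgroup Γ} [((pCoreOf p K).subgroupOf L).Normal] (hK : K ≤ L) :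
    pCoreOf p (qt L (pCoreOf p K) K) = ⊥ := by
  set N := pCoreOf p K
  have hNK : N ≤ K := Amb.pCoreOf_le p K
  set Z := pCoreOf p (qt L N K)
  have h1 : qtc L N Z ≤ K := by
    have := Qt.le_sup_of_le (Qt.qtc_le Z) ((Qt.qt_qtc Z).le.trans (Amb.pCoreOf_le p _))
    rwa [sup_eq_right.2 hNK] at this
  have h2 : IsPGroup p (qtc L N Z) := Amb.isPGroup_iff.2 fun g hg => by
    obtain ⟨hgL, hg⟩ := Qt.mem_qtc.1 hg
    obtain ⟨k, hk⟩ := Amb.isPGroup_iff.1 (Amb.isPGroup_pCoreOf p _) _ hg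
    have h3 := (Qt.mk_eq_one (N := N) (x := (⟨g, hgL⟩ : L) ^ p ^ k)).1 (by
      rw [QuotientGroup.mk_pow]; exact hk)
    obtain ⟨j, hj⟩ := Amb.isPGroup_iff.1 (Amb.isPGroup_pCoreOf p K) _ h3
    exact ⟨k + j, by rw [pow_add, pow_mul]; exact hj⟩
  rw [← Qt.qt_qtc Z]
  exact Qt.eq_bot_of_le (Amb.le_pCoreOf h2 h1 (Qt.le_norm_qtc hK (Amb.le_normalizer_pCoreOf p _)))

/-- The quotient by `O(K)` has trivial odd core. -/
theorem qt_oc {L : Subgroup Γ} [((oc K).subgroupOf L).Normal] (hK : K ≤ L) :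
    oc (qt L (oc K) K) = ⊥ := by
  set N := oc K
  have hNK : N ≤ K := oc_le K
  set Z := oc (qt L N K)
  have h1 : qtc L N Z ≤ K := by
    have := Qt.le_sup_of_le (Qt.qtc_le Z) ((Qt.qt_qtc Z).le.trans (oc_le _))
    rwa [sup_eq_right.2 hNK] at this
  have h2 : ¬ 2 ∣ Nat.card (qtc L N Z) := by
    rw [← Qt.card_mul_of_le (N := N) (Qt.qtc_le Z) (Qt.le_qtc (hNK.trans hK) Z), Qt.qt_qtc,
      Nat.prime_two.dvd_mul, not_or]
    exact ⟨oc_odd _, oc_odd _⟩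
  rw [← Qt.qt_qtc Z]
  exact Qt.eq_bot_of_le (le_oc h1 (Qt.le_norm_qtc hK (norm_oc (le_norm_self _))) h2)

namespace M0

variable (h : M0 r A G)
include h

/-- Local subgroups are solvable. -/
theorem loc (hX : Iv A G X) (h0 : X ≠ ⊥) (hs : Group.IsSolvable X) :
    Group.IsSolvable ↥(G ⊓ 𝒩(X)) :=
  h.sub _ (h.top.norm hX) fun e => (h.nn X hX (e.ge.trans inf_le_right)).elim h0
    fun e' => h.ns (e' ▸ hs)

theorem locp (hp : p.Prime) (hX : Iv A G X) (h0 : X ≠ ⊥) (hs : IsPGroup p X) :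
    Group.IsSolvable ↥(G ⊓ 𝒩(X)) := h.loc hX h0 (FH.solv_pgroup hp hs)

theorem eq_bot (hp : p.Prime) (hX : Iv A G X) (hs : IsPGroup p X) (hn : G ≤ 𝒩(X)) : X = ⊥ :=
  (h.nn X hX hn).resolve_right fun e => h.ns (e ▸ FH.solv_pgroup hp hs)

end M0

end Cfsg.Agent.MP
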