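import Mathlib
import Cfsg.Agent.MP.Defs

/-! S1917: lines of `A`, generation, the Hall-Higman/Thompson lemmas. -/

set_option autoImplicit false
set_option linter.unusedSectionVars false
set_option linter.unusedVariables false

namespace Cfsg.Agent.MP

open Cfsg Cfsg.Agent.FT Cfsg.Agent.PLocal Subgroup
open Cfsg.Agent.PLocal.Amb (IsSyl)
open Cfsg.Agent.PLocal.CommMod (centMod)
open scoped commutatorElement

universe u

variable {Γ : Type u} [Group Γ] [Finite Γ]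
variable {r p q : ℕ} {A G X Y Z H B B' P Q E W N U R K D : Subgroup Γ}

omit [Finite Γ] in
/-- Three subgroups lemma. -/
theorem three (h1 : ⁅⁅X, Y⁆, Z⁆ = ⊥) (h2 : ⁅⁅Y, Z⁆, X⁆ = ⊥) : ⁅⁅Z, X⁆, Y⁆ = ⊥ :=
  commutator_commutator_eq_bot_of_rotate h1 h2

omit [Finite Γ] in
theorem le_cm (h : X ≤ 𝒩(N)) : X ≤ centMod Y N ↔ ⁅Y, X⁆ ≤ N := FH.le_centMod' h

omit [Finite Γ] in
theorem le_cm' (h : X ≤ 𝒩(N)) : X ≤ centMod Y N ↔ ⁅X, Y⁆ ≤ N := by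
  rw [le_cm h, commutator_comm]

omit [Finite Γ] in
theorem cm_le (h : X ≤ centMod Y N) : ⁅Y, X⁆ ≤ N :=
  (commutator_mono le_rfl h).trans (FH.comm_centMod_le Y N)

omit [Finite Γ] in
theorem cm_le' (h : X ≤ centMod Y N) : ⁅X, Y⁆ ≤ N := by
  rw [commutator_comm]; exact cm_le h

omit [Finite Γ] in
theorem comm_bot' : ⁅X, Y⁆ = ⊥ ↔ Y ≤ 𝒞(X) := by rw [comm_eq_bot_iff, le_cent_comm]

omit [Finite Γ] in
theorem norm_comm_l (X Y : Subgroup Γ) : X ≤ 𝒩(⁅X, Y⁆) := Solv.le_normalizer_commutator_left X Y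

omit [Finite Γ] in
theorem norm_comm_r (X Y : Subgroup Γ) : Y ≤ 𝒩(⁅X, Y⁆) := Solv.le_normalizer_commutator_right X Y

/-- `[W, E] = [W, E, E]` for a `q`-group acting on a `p`-group. -/
theorem pq_cc (hp : p.Prime) (hq : q.Prime) (hne : p ≠ q) (hW : IsPGroup p W) (hE : IsPGroup q E)
    (h : E ≤ 𝒩(W)) : ⁅W, E⁆ ≤ ⁅⁅W, E⁆, E⁆ :=
  FH.comm_comm_eq h (FH.coprime_pgroup hq hp hne.symm hE hW) (Or.inl (FH.solv_pgroup hq hE))

theorem pq_split (hp : p.Prime) (hq : q.Prime) (hne : p ≠ q) (hW : IsPGroup p W) (hE : IsPGroup q E)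
    (h : E ≤ 𝒩(W)) : W ≤ ⁅W, E⁆ ⊔ (W ⊓ 𝒞(E)) :=
  split h (FH.coprime_pgroup hq hp hne.symm hE hW) (Or.inl (FH.solv_pgroup hq hE))

theorem pq_der (hp : p.Prime) (hq : q.Prime) (hne : p ≠ q) (hW : IsPGroup p W) (hE : IsPGroup q E)
    (h : E ≤ 𝒩(W)) (hc : W ≤ ⁅W, E⁆) : W ⊓ 𝒞(E) ≤ ⁅W, W⁆ :=
  FH.cent_le_der h (FH.coprime_pgroup hq hp hne.symm hE hW) hc

/-- Hall-Higman for odd `q`, Thompson for `q = 2`. -/
theorem r1 (hp : p.Prime) (hq : q.Prime) (hne : p ≠ q) (hB : (Nat.card B).Prime)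
    (hW : IsPGroup p W) (hE : IsPGroup q E) (hcW : ¬ Nat.card B ∣ Nat.card W)
    (hcE : ¬ Nat.card B ∣ Nat.card E) (hEW : E ≤ 𝒩(W)) (hBW : B ≤ 𝒩(W)) (hBE : B ≤ 𝒩(E))
    (hWN : W ≤ 𝒩(N)) (hEN : E ≤ 𝒩(N)) (hBN : B ≤ 𝒩(N)) (h2 : q = 2 → E ⊓ 𝒞(B) = ⊥)
    (hC : W ⊓ 𝒞(B) ≤ N) : ⁅W, ⁅E, B⁆⁆ ≤ N := by
  have hFE : ⁅E, B⁆ ≤ E := comm_le_left hBE
  set F := ⁅E, B⁆ with hF
  have h1 : ⁅W, F⁆ ≤ ⁅⁅W, F⁆, F⁆ := pq_cc hp hq hne hW (hE.to_le hFE) (hFE.trans hEW)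
  have hVW : ⁅W, F⁆ ≤ W := comm_le_left (hFE.trans hEW)
  have hEV : E ≤ 𝒩(⁅W, F⁆) := norm_comm hEW (norm_comm_l E B)
  have hBV : B ≤ 𝒩(⁅W, F⁆) := norm_comm hBW (norm_comm_r E B)
  set V := ⁅W, F⁆ with hV
  have hVp := hW.to_le hVW
  by_contra hn
  obtain ⟨l, N₁, s, k1, k2, -⟩ := FH.exists_chief (X := V) (N := N) (L := V ⊔ E ⊔ B)
    (FH.solv_pgroup hp hVp) (le_sup_left.trans le_sup_left)
    (sup_le (sup_le (le_norm_self V) hEV) hBV) (sup_le (sup_le (hVW.trans hWN) hEN) hBN) hn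
  have hEN₁ : E ≤ 𝒩(N₁) := (le_sup_right.trans le_sup_left).trans s.LN
  have hBN₁ : B ≤ 𝒩(N₁) := le_sup_right.trans s.LN
  have hcV : ¬ Nat.card B ∣ Nat.card V := fun hd => hcW (hd.trans (card_dvd_of_le hVW))
  have c1 : (Nat.card B).Coprime (Nat.card N₁) :=
    FH.cop_le (hB.coprime_iff_not_dvd.2 hcV) le_rfl s.le
  have hVC : V ⊓ 𝒞(B) ≤ N₁ := (le_inf inf_le_left ((inf_le_inf_right _ hVW).trans hC)).trans k1
  have hBp : IsPGroup (Nat.card B) B := B12.isPGroup_of_card rfl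
  refine k2 (h1.trans ?_)
  by_cases q2 : q = 2
  · haveI := Amb.normal_subgroupOf' s.LN
    haveI := Fact.mk hB
    have hn := Qt.nilpotent_of_reg (L := V ⊔ E ⊔ B) (N := N₁) (S := V ⊔ E) (K := B) le_sup_right hBN₁
      (norm_sup hBV hBE) (s.le.trans le_sup_left) (s.le.trans (le_sup_left.trans le_sup_left))
      (B12.ne_bot_of_card hB rfl) c1 fun k hk k1 => by
        rw [← cent_zpowers, zpowers_eq_of_card_prime hB hk k1,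
          Sig.sup_inf_cent hBp hcV hBV hBE (Or.inl hEV), h2 q2, sup_bot_eq]
        exact hVC
    exact Qt.comm_le_of_nilpotent (π := {p}) le_sup_left hn le_sup_left (hFE.trans le_sup_right)
      (B12.isPi_of_isPGroup hp hVp rfl) (B12.isPi_of_isPGroup hq (hE.to_le hFE) hne.symm)
  · have l1 : l ≠ q := s.ne_of_not_dvd k2 le_rfl (FH.not_dvd_pgroup hq hp hne.symm hVp)
    have l2 : l ≠ Nat.card B := s.ne_of_not_dvd k2 le_rfl hcV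
    refine hall_higman_sec s.prime hB hBE (hB.coprime_iff_not_dvd.2 hcE).symm (fun Q h1 h2 _ => ?_)
      ⟨s.le, s.norm⟩ s.der s.pow hEV hBV hEN₁ hBN₁ (FH.not_dvd_pgroup s.prime hq l1 hE)
      (fun hd => l2 ((Nat.prime_dvd_prime_iff_eq s.prime hB).1 hd)) fun x hx hr => ?_
    · rw [FH.pgroup_eq_bot Nat.prime_two h2 h1 (FH.not_dvd_pgroup Nat.prime_two hq (Ne.symm q2) hE)]
      infer_instance
    · obtain ⟨n, hn, hc⟩ := Solv.coprime_fixed_coset' B N₁ hBN₁ c1 (Or.inl (FH.solv_pgroup hB hBp)) x hr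
      exact (N₁.mul_mem_cancel_right hn).1 (hVC ⟨V.mul_mem hx (s.le hn), hc⟩)

namespace Hy

variable (h : Hy r A G)
include h

theorem ln_zp {a : Γ} (ha : a ∈ A) (h1 : a ≠ 1) : Ln r A (zpowers a) :=
  haveI := Fact.mk h.pr
  ⟨zpowers_le.2 ha, Sig.ea_card_zpowers h.el ha h1⟩

/-- The basic lemma in the setting of the theorem. -/
theorem r1 (hp : p.Prime) (hq : q.Prime) (hne : p ≠ q) (hB : Ln r A B) (hW : Iv A G W) (hE : Iv A G E)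
    (hWp : IsPGroup p W) (hEq : IsPGroup q E) (hEW : E ≤ 𝒩(W)) (hWN : W ≤ 𝒩(N)) (hEN : E ≤ 𝒩(N))
    (hAN : A ≤ 𝒩(N)) (h2 : E ⊓ 𝒞(B) ≤ 𝒞(A)) (hC : W ⊓ 𝒞(B) ≤ N) : ⁅W, ⁅E, B⁆⁆ ≤ N :=
  MP.r1 hp hq hne (hB.card ▸ h.pr) hWp hEq (hB.card ▸ h.ndv hW.le) (hB.card ▸ h.ndv hE.le) hEW
    (hB.le.trans hW.n) (hB.le.trans hE.n) hWN hEN (hB.le.trans hAN)
    (fun e => eq_bot_iff.2 ((le_inf inf_le_left h2).trans (h.two_bot hE.le (e ▸ hEq)).le)) hC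

/-- If `B` has the same fixed points as `A` on `E` and `R`, then `[E, B]` centralizes `R`. -/
theorem f0 (hp : p.Prime) (hq : q.Prime) (hne : p ≠ q) (hB : Ln r A B) (hR : Iv A G R) (hE : Iv A G E)
    (hRp : IsPGroup p R) (hEq : IsPGroup q E) (hER : E ≤ 𝒩(R)) (h2 : E ⊓ 𝒞(B) ≤ 𝒞(A))
    (hC : R ⊓ 𝒞(B) ≤ 𝒞(A)) : ⁅E, B⁆ ≤ 𝒞(R) := by
  have hF := h.star hE hB.le
  have hFE := h.star_le hE hB.le
  have hWR : ⁅R, ⁅E, B⁆⁆ ≤ R := comm_le_left (hFE.trans hER)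
  have hW := hR.comm hF
  have hEW : E ≤ 𝒩(⁅R, ⁅E, B⁆⁆) := norm_comm hER (norm_comm_l _ _)
  have c := pq_cc hp hq hne hRp (hEq.to_le hFE) (hFE.trans hER)
  rw [← comm_bot']
  set W := ⁅R, ⁅E, B⁆⁆
  have hWp := hRp.to_le hWR
  refine eq_bot_of_le_der (FH.solv_pgroup hp hWp) (c.trans ?_)
  refine h.r1 hp hq hne hB hW hE hWp hEq hEW (norm_der (le_norm_self W)) (norm_der hEW) (norm_der hW.n)
    h2 (le_trans (le_inf inf_le_left ?_) (pq_der hp hq hne hWp (hEq.to_le hFE) (hFE.trans hEW) c))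
  exact ((le_inf inf_le_left ((inf_le_inf_right _ hWR).trans hC)).trans
    (h.u1 hp hq hne hE hEq hW.le hWp hEW)).trans (cent_anti hFE)

theorem f1_aux (hp : p.Prime) (hs : Group.IsSolvable G) (hB : Ln r A B) (hC : G ⊓ 𝒞(B) ≤ 𝒞(A))
    (h0 : pCoreOf p G = ⊥) (hP : Iv A G P) (hPp : IsPGroup p P) : ⁅P, B⁆ = ⊥ := by
  haveI := Fact.mk hp
  rw [eq_bot_iff, ← h0]
  refine Solv.NA.le_pCoreOf_of_forall_centralizer hs (pg_comm hPp (hB.le.trans hP.n))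
    (h.star hP hB.le).le fun l hl => ?_
  by_cases e : l = p
  · rw [e, h0, cent_bot]; exact le_top
  · exact h.f0 hl hp e hB (h.top.pcore l) hP (Amb.isPGroup_pCoreOf l G) hPp
      (hP.le.trans (Amb.le_normalizer_pCoreOf l G)) ((inf_le_inf_right _ hP.le).trans hC)
      ((inf_le_inf_right _ (Amb.pCoreOf_le l G)).trans hC)

/-- If `B` has the same fixed points as `A` on the solvable group `K` then `[P, B] ≤ O_p(K)`. -/
theorem f1 (hp : p.Prime) (hK : Iv A G K) (hs : Group.IsSolvable K) (hB : Ln r A B)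
    (hC : K ⊓ 𝒞(B) ≤ 𝒞(A)) (hP : Iv A K P) (hPp : IsPGroup p P) : ⁅P, B⁆ ≤ pCoreOf p K := by
  have k := h.sub hK
  have hN := k.top.pcore p
  haveI := nrm (Amb.le_normalizer_pCoreOf p K) hN.n
  have k' := k.qt (L := K ⊔ A) le_sup_left le_sup_right hN
  have := k'.f1_aux hp (Qt.solvable le_sup_left hs) (k.qt_ln le_sup_right hN.le hB) (by
      rw [← k.qt_cl le_sup_left le_sup_right hN.le k.top hB.le]
      exact ((Qt.mono (le_inf inf_le_left hC)).trans (Qt.inf_cent_ge K A)).trans inf_le_right)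
    (qt_pcore le_sup_left) (qt_iv hP) (Qt.pgroup (hP.le.trans le_sup_left) hPp)
  rwa [← Qt.qt_comm (hP.le.trans le_sup_left) (hB.le.trans le_sup_right),
    Qt.eq_bot_iff' ((k.star hP hB.le).le.trans le_sup_left)] at this

end Hy

theorem Ln.eq_of_le (hB : Ln r A B) (hB' : Ln r A B') (h : B ≤ B') : B = B' :=
  eq_of_le_of_card_ge h (hB'.card.trans hB.card.symm).le

namespace H2

variable (h : H2 r A G)
include h

theorem hyp (hB : Ln r A B) : Sig.Hyp r B A :=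
  haveI := Fact.mk h.pr
  Sig.hyp_of_card hB.le (by rw [hB.card, h.card, pow_two])

theorem ln_sup (hB : Ln r A B) (hB' : Ln r A B') (hne : B ≠ B') : B ⊔ B' = A :=
  haveI := Fact.mk h.pr
  (h.hyp hB).eq_of_lt (left_lt_sup.2 fun hl => hne (hB'.eq_of_le hB hl).symm) (sup_le hB.le hB'.le)

theorem cent2 (hB : Ln r A B) (hB' : Ln r A B') (hne : B ≠ B') (hX : X ≤ 𝒞(B)) :
    X ⊓ 𝒞(B') ≤ 𝒞(A) := by
  rw [← h.ln_sup hB hB' hne, cent_sup]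
  exact inf_le_inf_right _ hX

theorem star_eq (hB : Ln r A B) (hB' : Ln r A B') (hne : B ≠ B') (hX : X ≤ 𝒞(B)) :
    ⁅X, A⁆ ≤ ⁅X, B'⁆ := by
  conv_lhs => rw [← h.ln_sup hB hB' hne]
  refine CommMod.commutator_sup_le' (norm_comm (le_norm_of_le_cent (le_cent_comm.1 hX))
    (hB.le.trans (h.nA hB'.le))) (norm_comm_r _ _) ?_ le_rfl
  rw [comm_eq_bot_iff.2 hX]
  exact bot_le

theorem third (hB : Ln r A B) (hB' : Ln r A B') : ∃ D, Ln r A D ∧ D ≠ B ∧ D ≠ B' := by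
  haveI := Fact.mk h.pr
  have key : ∀ a ∈ A, a ∉ B → a ∉ B' → ∃ D, Ln r A D ∧ D ≠ B ∧ D ≠ B' := fun a ha h1 h2 =>
    ⟨zpowers a, h.ln_zp ha fun e => h1 (e ▸ one_mem B), fun e => h1 (e ▸ mem_zpowers a),
      fun e => h2 (e ▸ mem_zpowers a)⟩
  obtain ⟨x, hx, hx'⟩ := (h.hyp hB).exists_not_mem
  obtain ⟨y, hy, hy'⟩ := (h.hyp hB').exists_not_mem
  by_cases h1 : x ∈ B'
  · by_cases h2 : y ∈ B
    · exact key (x * y) (A.mul_mem hx hy) (fun e => hx' ((B.mul_mem_cancel_right h2).1 e))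
        fun e => hy' ((B'.mul_mem_cancel_left h1).1 e)
    · exact key y hy h2 hy'
  · exact key x hx hx' h1

theorem gen (hX : Iv A G X) (hK : ∀ B, Ln r A B → X ⊓ 𝒞(B) ≤ K) : X ≤ K :=
  haveI := Fact.mk h.pr
  Sig.le_of_cent1_le h.el h.card.ge hX.n (h.ndv hX.le) fun a ha h1 => by
    rw [← cent_zpowers]; exact hK _ (h.ln_zp ha h1)

theorem ex_ln (hX : Iv A G X) (hK : ¬ X ≤ K) : ∃ B, Ln r A B ∧ ¬ X ⊓ 𝒞(B) ≤ K := by
  by_contra hn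
  push Not at hn
  exact hK (h.gen hX hn)

/-- `X` is generated by `C_X(A)` and the groups `[C_X(B), A]`. -/
theorem gen' (hX : Iv A G X) (h0 : X ⊓ 𝒞(A) ≤ K) (hK : ∀ B, Ln r A B → ⁅X ⊓ 𝒞(B), A⁆ ≤ K) :
    X ≤ K :=
  h.gen hX fun B hB => (h.sp (h.cl hX hB.le) le_rfl).trans
    (sup_le (hK B hB) ((inf_le_inf_right _ inf_le_left).trans h0))

/-- `[D, B]` is generated by the groups `[C_D(B'), A]`, `B' ≠ B`. -/
theorem gen_star (hq : q.Prime) (hD : Iv A G D) (hDq : IsPGroup q D) (hB : Ln r A B)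
    (hK : ∀ B', Ln r A B' → B' ≠ B → ⁅D ⊓ 𝒞(B'), A⁆ ≤ K) : ⁅D, B⁆ ≤ K := by
  have hV := h.star hD hB.le
  have hVD := h.star_le hD hB.le
  have c := FH.cent_le_der (hB.le.trans hV.n) (h.cop hB.le hV.le) (h.cc hD hB.le)
  set V := ⁅D, B⁆
  refine (FH.le_of_le_sup_der hq (hDq.to_le hVD) (K := V ⊓ K) inf_le_left ?_).trans inf_le_right
  refine h.gen hV fun B' hB' => ?_
  by_cases e : B' = B
  · rw [e]; exact c.trans le_sup_right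
  · refine (h.sp (h.cl hV hB'.le) le_rfl).trans (sup_le (le_sup_of_le_left (le_inf ?_ ?_)) ?_)
    · exact (h.star_le (h.cl hV hB'.le) le_rfl).trans inf_le_left
    · exact (commutator_mono (inf_le_inf_right _ hVD) le_rfl).trans (hK B' hB' e)
    · exact ((inf_le_inf inf_le_left (cent_anti hB.le)).trans c).trans le_sup_right

/-- `E ≤ C(B)` acts on `W`, and `C_W(B') ≤ N`. -/
theorem r2 (hp : p.Prime) (hq : q.Prime) (hne : p ≠ q) (hB : Ln r A B) (hB' : Ln r A B') (hBB : B ≠ B')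
    (hW : Iv A G W) (hE : Iv A G E) (hWp : IsPGroup p W) (hEq : IsPGroup q E) (hEW : E ≤ 𝒩(W))
    (hWN : W ≤ 𝒩(N)) (hEN : E ≤ 𝒩(N)) (hAN : A ≤ 𝒩(N)) (hEB : E ≤ 𝒞(B)) (hC : W ⊓ 𝒞(B') ≤ N) :
    ⁅W, ⁅E, A⁆⁆ ≤ N :=
  (commutator_mono le_rfl (h.star_eq hB hB' hBB hEB)).trans
    (h.r1 hp hq hne hB' hW hE hWp hEq hEW hWN hEN hAN (h.cent2 hB hB' hBB hEB) hC)

/-- If `C_R(B) ≤ N` then `[D, B]` centralizes `R` modulo `N`. -/
theorem w2 (hp : p.Prime) (hq : q.Prime) (hne : p ≠ q) (hB : Ln r A B) (hR : Iv A G R) (hD : Iv A G D)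
    (hRp : IsPGroup p R) (hDq : IsPGroup q D) (hDR : D ≤ 𝒩(R)) (hRN : R ≤ 𝒩(N)) (hDN : D ≤ 𝒩(N))
    (hAN : A ≤ 𝒩(N)) (hC : R ⊓ 𝒞(B) ≤ N) : ⁅R, ⁅D, B⁆⁆ ≤ N :=
  cm_le (h.gen_star hq hD hDq hB fun B' hB' e =>
    (le_cm (((h.star_le (h.cl hD hB'.le) le_rfl).trans inf_le_left).trans hDN)).2
      (h.r2 hp hq hne hB' hB e hR (h.cl hD hB'.le) hRp (pg_inf hDq _) (inf_le_left.trans hDR) hRN
        (inf_le_left.trans hDN) hAN inf_le_right hC))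

/-- If `C_R(B) ≤ R'` then `[D, B]` centralizes `R`. -/
theorem w2' (hp : p.Prime) (hq : q.Prime) (hne : p ≠ q) (hB : Ln r A B) (hR : Iv A G R) (hD : Iv A G D)
    (hRp : IsPGroup p R) (hDq : IsPGroup q D) (hDR : D ≤ 𝒩(R)) (hC : R ⊓ 𝒞(B) ≤ ⁅R, R⁆) :
    ⁅D, B⁆ ≤ 𝒞(R) := by
  have hF := h.star_le hD hB.le
  rw [← comm_bot', eq_bot_iff]
  exact FH.comm_le_of_le_der_sup hp hRp bot_le (by rw [norm_bot]; exact le_top) (hF.trans hDR)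
    (by rw [norm_bot]; exact le_top) (FH.coprime_pgroup hq hp hne.symm (hDq.to_le hF) hRp)
    ((h.w2 hp hq hne hB hR hD hRp hDq hDR (norm_der (le_norm_self R)) (norm_der hDR) (norm_der hR.n)
      hC).trans le_sup_left)

/-- `W = [W, E]` is generated by the `E`-conjugates of `[C_W(B'), A]`. -/
theorem clo (hp : p.Prime) (hq : q.Prime) (hne : p ≠ q) (hB : Ln r A B) (hB' : Ln r A B')
    (hBB : B ≠ B') (hW : Iv A G W) (hE : Iv A G E) (hWp : IsPGroup p W) (hEq : IsPGroup q E)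
    (hEW : E ≤ 𝒩(W)) (hEB : E ≤ 𝒞(B)) (hEA : E ≤ ⁅E, A⁆) (hWE : W ≤ ⁅W, E⁆) (hEK : E ≤ 𝒩(K))
    (hAK : A ≤ 𝒩(K)) (hK : ⁅W ⊓ 𝒞(B'), A⁆ ≤ K) : W ≤ K := by
  have d := pq_der hp hq hne hWp hEq hEW hWE
  have n : ∀ {Y : Subgroup Γ}, Y ≤ 𝒩(W) → Y ≤ 𝒩(K) → Y ≤ 𝒩((W ⊓ K) ⊔ ⁅W, W⁆) := fun h1 h2 =>
    norm_sup (norm_inf h1 h2) (norm_der h1)
  refine (FH.le_of_le_sup_der hp hWp (K := W ⊓ K) inf_le_left ?_).trans inf_le_right
  refine hWE.trans ((commutator_mono le_rfl hEA).trans ?_)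
  refine h.r2 hp hq hne hB hB' hBB hW hE hWp hEq hEW
    (le_norm_of_der_le (sup_le inf_le_left (der_le W)) le_sup_right) (n hEW hEK) (n hW.n hAK) hEB
    ((h.sp (h.cl hW hB'.le) le_rfl).trans (sup_le (le_sup_of_le_left (le_inf ?_ hK)) ?_))
  · exact (h.star_le (h.cl hW hB'.le) le_rfl).trans inf_le_left
  · exact (((inf_le_inf_right _ inf_le_left).trans
      (le_inf inf_le_left (h.u1 hp hq hne hE hEq hW.le hWp hEW))).trans d).trans le_sup_right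

theorem w1 (hp : p.Prime) (hq : q.Prime) (hne : p ≠ q) (hB : Ln r A B) (hB' : Ln r A B')
    (hBB : B ≠ B') (hW : Iv A G W) (hE : Iv A G E) (hWp : IsPGroup p W) (hEq : IsPGroup q E)
    (hEW : E ≤ 𝒩(W)) (hEB : E ≤ 𝒞(B)) (hEA : E ≤ ⁅E, A⁆) (hWE : W ≤ ⁅W, E⁆)
    (hK : W ⊓ 𝒞(B') ≤ ⁅W, W⁆) : W = ⊥ :=
  eq_bot_of_le_der (FH.solv_pgroup hp hWp) (hWE.trans ((commutator_mono le_rfl hEA).trans
    (h.r2 hp hq hne hB hB' hBB hW hE hWp hEq hEW (norm_der (le_norm_self W)) (norm_der hEW)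
      (norm_der hW.n) hEB hK)))

/-- If `E = [E, A] ≤ C(B)` acts nontrivially on `R`, then `[C_{[R, E]}(B'), A] ≠ 1`. -/
theorem w1' (hp : p.Prime) (hq : q.Prime) (hne : p ≠ q) (hB : Ln r A B) (hB' : Ln r A B')
    (hBB : B ≠ B') (hR : Iv A G R) (hE : Iv A G E) (hRp : IsPGroup p R) (hEq : IsPGroup q E)
    (hER : E ≤ 𝒩(R)) (hEB : E ≤ 𝒞(B)) (hEA : E ≤ ⁅E, A⁆) (hK : ⁅⁅R, E⁆ ⊓ 𝒞(B'), A⁆ = ⊥) :
    ⁅R, E⁆ = ⊥ :=
  eq_bot_iff.2 (h.clo hp hq hne hB hB' hBB (hR.comm hE) hE (pg_comm hRp hER) hEq (norm_comm_r R E) hEB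
    hEA (pq_cc hp hq hne hRp hEq hER) (by rw [norm_bot]; exact le_top)
    (by rw [norm_bot]; exact le_top) hK.le)

/-- Inside `C(B)`: `[E, A]` centralizes `R`. -/
theorem f0 (hp : p.Prime) (hq : q.Prime) (hne : p ≠ q) (hB : Ln r A B) (hR : Iv A G R) (hE : Iv A G E)
    (hRp : IsPGroup p R) (hEq : IsPGroup q E) (hER : E ≤ 𝒩(R)) (hEB : E ≤ 𝒞(B)) (hRB : R ≤ 𝒞(B)) :
    ⁅E, A⁆ ≤ 𝒞(R) := by
  obtain ⟨D, hD, e, -⟩ := h.third hB hB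
  exact (h.star_eq hB hD e.symm hEB).trans (h.toHy.f0 hp hq hne hD hR hE hRp hEq hER
    (h.cent2 hB hD e.symm hEB) (h.cent2 hB hD e.symm hRB))

theorem f1 (hp : p.Prime) (hK : Iv A G K) (hs : Group.IsSolvable K) (hB : Ln r A B) (hKB : K ≤ 𝒞(B))
    (hP : Iv A K P) (hPp : IsPGroup p P) : ⁅P, A⁆ ≤ pCoreOf p K := by
  obtain ⟨D, hD, e, -⟩ := h.third hB hB
  exact (h.star_eq hB hD e.symm (hP.le.trans hKB)).trans
    (h.toHy.f1 hp hK hs hD (h.cent2 hB hD e.symm hKB) hP hPp)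

/-- `[C_P(B), A]` and `[C_Q(B), A]` commute. -/
theorem f2 (hp : p.Prime) (hq : q.Prime) (hne : p ≠ q) (hB : Ln r A B)
    (hs : Group.IsSolvable ↥(G ⊓ 𝒞(B))) (hP : Iv A G P) (hPp : IsPGroup p P) (hQ : Iv A G Q)
    (hQq : IsPGroup q Q) : ⁅P ⊓ 𝒞(B), A⁆ ≤ 𝒞(⁅Q ⊓ 𝒞(B), A⁆) := by
  have hK := h.cl h.top hB.le
  have k1 := h.f1 hp hK hs hB inf_le_right ((h.cl hP hB.le).tom (inf_le_inf_right _ hP.le)) (pg_inf hPp _)
  have k2 := h.f1 hq hK hs hB inf_le_right ((h.cl hQ hB.le).tom (inf_le_inf_right _ hQ.le)) (pg_inf hQq _)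
  refine k1.trans (le_trans ?_ (cent_anti k2))
  exact le_cent_of_inf_eq_bot ((Amb.pCoreOf_le _ _).trans (Amb.le_normalizer_pCoreOf _ _))
    ((Amb.pCoreOf_le _ _).trans (Amb.le_normalizer_pCoreOf _ _))
    (pq_bot hp hq hne (Amb.isPGroup_pCoreOf _ _) (Amb.isPGroup_pCoreOf _ _))

end H2

theorem Mn.solC (h : Mn r A G) (hB : Ln r A B) : Group.IsSolvable ↥(G ⊓ 𝒞(B)) :=
  h.sub _ (h.cl h.top hB.le) fun e => h.fa B hB (e.ge.trans inf_le_right)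


end Cfsg.Agent.MP
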