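import Mathlib
import Cfsg.Agent.MP.Basic
import Cfsg.Agent.FH.Ward

/-! S1917: invariant solvable subgroups have `2`-length one. -/

set_option autoImplicit false
set_option linter.unusedSectionVars false
set_option linter.unusedVariables false

namespace Cfsg.Agent.MP

open Cfsg Cfsg.Agent.FT Cfsg.Agent.PLocal Subgroup
open Cfsg.Agent.PLocal.Amb (IsSyl)
open Cfsg.Agent.PLocal.CommMod (centMod)
open scoped commutatorElement

universe u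

variable {Γ : Type u} [Group Γ] [Finite Γ]
variable {r p q t : ℕ} {A G X Y Z H B B' P Q E W N U R K D : Subgroup Γ}

omit [Finite Γ] in
theorem nb (X : Subgroup Γ) : X ≤ 𝒩((⊥ : Subgroup Γ)) := by rw [norm_bot]; exact le_top

omit [Finite Γ] in
theorem cb (X : Subgroup Γ) : X ≤ 𝒞((⊥ : Subgroup Γ)) := by rw [cent_bot]; exact le_top

namespace H2

variable (h : H2 r A G)
include h

theorem tower_ward (ht : t.Prime) (t2 : t ≠ 2) (hE : Iv A G E) (hE2 : IsPGroup 2 E) (hU : Iv A G U)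
    (hU2 : IsPGroup 2 U) (hEU : E ≤ 𝒩(U)) (hR : Iv A G R) (hRt : IsPGroup t R) (hER : E ≤ 𝒩(R))
    (hRU : R ≤ 𝒩(U)) (hc : R ≤ ⁅R, E⁆) (h0 : R ⊓ 𝒞(A) = ⊥) : R ≤ 𝒞(U) := by
  haveI := Fact.mk h.pr
  have p2 := Nat.prime_two
  have hK := (hU.sup hR).sup hE
  have hA := isEA_isPGroup h.el
  have hs : Group.IsSolvable ↥(U ⊔ R ⊔ E) := Sig.isSolvable_sup (norm_sup hEU hER)
    (Sig.isSolvable_sup hRU (FH.solv_pgroup p2 hU2) (FH.solv_pgroup ht hRt)) (FH.solv_pgroup p2 hE2)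
  have w := FH.ward h.pr hs h.el h.card hK.n (h.ndv hK.le) (by
    rw [Sig.sup_inf_cent hA (h.ndv (hU.sup hR).le) (hU.sup hR).n hE.n (Or.inl (norm_sup hEU hER)),
      Sig.sup_inf_cent hA (h.ndv hU.le) hU.n hR.n (Or.inl hRU), h0, h.two_bot hU.le hU2,
      h.two_bot hE.le hE2, sup_bot_eq, sup_bot_eq])
  have k1 : R ≤ FH.resN 1 (U ⊔ R ⊔ E) := hc.trans (FH.comm_le_resN_succ (e := 0)
    (le_sup_right.trans le_sup_left) le_sup_right hER (FH.coprime_pgroup p2 ht t2.symm hE2 hRt)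
    (FH.solv_pgroup ht hRt))
  rw [← comm_bot', eq_bot_iff, ← w]
  exact FH.comm_le_resN_succ (e := 1) (le_sup_left.trans le_sup_left) k1 hRU
    (FH.coprime_pgroup ht p2 t2 hRt hU2) (FH.solv_pgroup p2 hU2)

/-- In a group of class two with `1 ≠ C_R(A) ≤ R'` some `[C_R(D), A]'` has fixed points. -/
theorem exists_fix (hR : Iv A G R) (hz : ⁅R, R⁆ ≤ 𝒞(R)) (h1 : R ⊓ 𝒞(A) ≤ ⁅R, R⁆)
    (h0 : R ⊓ 𝒞(A) ≠ ⊥) :
    ∃ D, Ln r A D ∧ ⁅⁅R ⊓ 𝒞(D), A⁆, ⁅R ⊓ 𝒞(D), A⁆⁆ ⊓ 𝒞(A) ≠ ⊥ := by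
  by_contra hn
  push Not at hn
  have hR' := hR.comm hR
  have hN := h.star hR' le_rfl
  have hNR := h.star_le hR' le_rfl
  set N := ⁅⁅R, R⁆, A⁆ with hNdef
  have n : R ≤ 𝒩(N) := le_norm_of_le_cent (le_cent_comm.1 (hNR.trans hz))
  have sl : ∀ D, Ln r A D → ⁅R ⊓ 𝒞(D), A⁆ ≤ R ⊓ 𝒞(D) := fun D hD => h.star_le (h.cl hR hD.le) le_rfl
  have sr : ∀ D, Ln r A D → ⁅R ⊓ 𝒞(D), A⁆ ≤ R := fun D hD => (sl D hD).trans inf_le_left
  have k : ∀ D, Ln r A D → ∀ D', Ln r A D' → ⁅⁅R ⊓ 𝒞(D'), A⁆, ⁅R ⊓ 𝒞(D), A⁆⁆ ≤ N := by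
    intro D hD D' hD'
    have i := h.star (h.cl hR hD.le) le_rfl
    by_cases e : D' = D
    · subst e
      refine (h.sp (i.comm i) le_rfl).trans (sup_le (commutator_mono (der_mono (sr _ hD)) le_rfl) ?_)
      rw [hn _ hD]; exact bot_le
    · refine le_trans (commutator_mono ((h.cc (h.cl hR hD'.le) le_rfl).trans
        (h.star_eq hD' hD e ((sl _ hD').trans inf_le_right))) le_rfl) ?_
      refine CommMod.three_subgroups_mod ((sr _ hD').trans n) (hD.le.trans hN.n) ((sr _ hD).trans n) ?_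
        (commutator_mono (commutator_mono (sr _ hD) (sr _ hD')) hD.le)
      rw [comm_bot'.2 ((sl _ hD).trans inf_le_right), commutator_bot_left]
      exact bot_le
  have c : ∀ Y ≤ R, R ⊓ 𝒞(A) ≤ centMod Y N := fun Y hY =>
    FH.cent_le_centMod n |>.trans' (le_inf inf_le_left ((h1.trans hz).trans (cent_anti hY)))
  have k2 : ∀ D, Ln r A D → R ≤ centMod ⁅R ⊓ 𝒞(D), A⁆ N := fun D hD =>
    h.gen' hR (c _ (sr D hD)) fun D' hD' => (le_cm' ((sr _ hD').trans n)).2 (k D hD D' hD')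
  have k3 : R ≤ centMod R N :=
    h.gen' hR (c _ le_rfl) fun D hD => (le_cm' ((sr _ hD).trans n)).2 (cm_le (k2 D hD))
  haveI : IsMulCommutative ↥⁅R, R⁆ := abelian_iff.2 (hz.trans (cent_anti (der_le R)))
  refine h0 (eq_bot_iff.2 ?_)
  rw [← Solv.coprime_centralizer_inf_commutator A ⁅R, R⁆ hR'.n (h.cop le_rfl hR'.le)]
  exact le_inf (le_inf h1 inf_le_right) (h1.trans (cm_le k3))

theorem tower1 (ht : t.Prime) (t2 : t ≠ 2) (hB : Ln r A B) (hE : Iv A G E) (hE2 : IsPGroup 2 E)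
    (hEB : E ≤ 𝒞(B)) (hU : Iv A G U) (hU2 : IsPGroup 2 U) (hEU : E ≤ 𝒩(U)) (R : Subgroup Γ) :
    Iv A G R → IsPGroup t R → E ≤ 𝒩(R) → R ≤ 𝒩(U) → R ⊓ 𝒞(U) = ⊥ → ⁅R, E⁆ = ⊥ := by
  induction R using (wellFounded_lt (α := Subgroup Γ)).induction with
  | h R ih =>
  intro hR hRt hER hRU hf
  by_contra hne
  have p2 := Nat.prime_two
  have ih1 : ∀ R₁ ≤ R, ¬ R ≤ R₁ → Iv A G R₁ → E ≤ 𝒩(R₁) → ⁅R₁, E⁆ = ⊥ := fun R₁ h1 h2 h3 h4 =>
    ih R₁ (lt_of_le_not_ge h1 h2) h3 (hRt.to_le h1) h4 (h1.trans hRU)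
      (eq_bot_iff.2 ((inf_le_inf_right _ h1).trans hf.le))
  have hc : R ≤ ⁅R, E⁆ := by
    by_contra hn
    exact hne (eq_bot_iff.2 ((pq_cc ht p2 t2 hRt hE2 hER).trans
      (ih1 _ (comm_le_left hER) hn (hR.comm hE) (norm_comm_r _ _)).le))
  have d := pq_der ht p2 t2 hRt hE2 hER hc
  have ih2 : ∀ R₁ ≤ R, ¬ R ≤ R₁ → Iv A G R₁ → E ≤ 𝒩(R₁) → R₁ ≤ ⁅R, R⁆ := fun R₁ h1 h2 h3 h4 =>
    (le_inf h1 (comm_eq_bot_iff.1 (ih1 R₁ h1 h2 h3 h4))).trans d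
  have R0 : R ≠ ⊥ := fun e => hne (by rw [e, commutator_bot_left])
  have d1 : ⁅⁅R, R⁆, E⁆ = ⊥ := ih1 _ (der_le R) (fun hl => R0 (eq_bot_of_le_der (FH.solv_pgroup ht hRt) hl))
    (hR.comm hR) (norm_der hER)
  have hz : ⁅R, R⁆ ≤ 𝒞(R) := by
    rw [← comm_bot', eq_bot_iff]
    refine (commutator_mono hc le_rfl).trans (three ?_ ?_).le
    · rw [commutator_comm E, d1, commutator_bot_left]
    · rw [eq_bot_iff, ← d1]
      exact commutator_mono (comm_le_left (norm_der (le_norm_self R))) le_rfl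
  have a1 : R ⊓ 𝒞(A) ≤ ⁅R, R⁆ := (le_inf inf_le_left (h.u1 ht p2 t2 hE hE2 hR.le hRt hER)).trans d
  by_cases h0 : R ⊓ 𝒞(A) = ⊥
  · exact R0 (eq_bot_iff.2 ((le_inf le_rfl
      (h.tower_ward ht t2 hE hE2 hU hU2 hEU hR hRt hER hRU hc h0)).trans hf.le))
  obtain ⟨D, hD, hZ0⟩ := h.exists_fix hR hz a1 h0
  have i := h.star (h.cl hR hD.le) le_rfl
  have sr : ⁅R ⊓ 𝒞(D), A⁆ ≤ R := (h.star_le (h.cl hR hD.le) le_rfl).trans inf_le_left
  have hZ := h.cl (i.comm i) le_rfl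
  have z1 : ⁅⁅R ⊓ 𝒞(D), A⁆, ⁅R ⊓ 𝒞(D), A⁆⁆ ⊓ 𝒞(A) ≤ ⁅R ⊓ 𝒞(D), A⁆ := inf_le_left.trans (der_le _)
  have z2 : ⁅⁅R ⊓ 𝒞(D), A⁆, ⁅R ⊓ 𝒞(D), A⁆⁆ ⊓ 𝒞(A) ≤ ⁅R, R⁆ := inf_le_left.trans (der_mono sr)
  set Z := ⁅⁅R ⊓ 𝒞(D), A⁆, ⁅R ⊓ 𝒞(D), A⁆⁆ ⊓ 𝒞(A)
  have zR : Z ≤ R := z1.trans sr
  have hZt := hRt.to_le zR
  have hV := hU.comm hZ
  have vU : ⁅U, Z⁆ ≤ U := comm_le_left (zR.trans hRU)
  have vc := pq_cc p2 ht t2.symm hU2 hZt (zR.trans hRU)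
  have nR : R ≤ 𝒩(⁅U, Z⁆) := norm_comm hRU (le_norm_of_le_cent (le_cent_comm.1 (z2.trans hz)))
  have nE : E ≤ 𝒩(⁅U, Z⁆) := norm_comm hEU (le_norm_of_le_cent
    (le_cent_comm.1 (z2.trans (comm_eq_bot_iff.1 d1))))
  have f := h.f0 p2 ht t2.symm hD (h.cl hU hD.le) (h.cl hR hD.le) (pg_inf hU2 _) (pg_inf hRt _)
    (norm_inf (inf_le_left.trans hRU) (inf_le_right.trans (le_norm_self _))) inf_le_right inf_le_right
  have w := h.w2' p2 ht t2.symm hD hV hR (hU2.to_le vU) hRt nR ((le_inf inf_le_left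
    ((inf_le_inf_right _ vU).trans (le_cent_comm.1 (z1.trans f)))).trans
    (pq_der p2 ht t2.symm (hU2.to_le vU) hZt (zR.trans nR) vc))
  have w2 := ih2 _ inf_le_left (fun hl => hZ0 (eq_bot_iff.2 ((le_inf zR (comm_bot'.1 (eq_bot_iff.2
    (vc.trans (comm_bot'.2 ((zR.trans hl).trans inf_le_right)).le)))).trans hf.le))) (hR.cent hV)
    (norm_inf hER (norm_cent nE))
  have w3 : R ≤ 𝒞(D) := comm_eq_bot_iff.1 (eq_bot_iff.2 (FH.comm_le_of_le_der_sup ht hRt bot_le (nb _)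
    (hD.le.trans hR.n) (nb _) (h.cop hD.le hR.le)
    (((le_inf (h.star_le hR hD.le) w).trans w2).trans le_sup_left)))
  obtain ⟨D', hD', e1, e2⟩ := h.third hD hB
  exact R0 (h.w1 ht p2 t2 hB hD' e2.symm hR hE hRt hE2 hER hEB (h.two_star hE hE2) hc
    ((le_inf inf_le_left (h.cent2 hD hD' e1.symm w3)).trans a1))

/-- There is no invariant tower of type `(2, t, 2)`. -/
theorem tower (ht : t.Prime) (t2 : t ≠ 2) (hE : Iv A G E) (hE2 : IsPGroup 2 E) (hU : Iv A G U)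
    (hU2 : IsPGroup 2 U) (hEU : E ≤ 𝒩(U)) (hR : Iv A G R) (hRt : IsPGroup t R) (hER : E ≤ 𝒩(R))
    (hRU : R ≤ 𝒩(U)) (hf : R ⊓ 𝒞(U) = ⊥) : E ≤ 𝒞(R) :=
  h.gen hE fun B hB => comm_bot'.1 (h.tower1 ht t2 hB (h.cl hE hB.le) (pg_inf hE2 _) inf_le_right hU
    hU2 (inf_le_left.trans hEU) R hR hRt (inf_le_left.trans hER) hRU hf)

theorem fa0 (hs : Group.IsSolvable G) (h0 : oc G = ⊥) (hE : Iv A G E) (hE2 : IsPGroup 2 E) :
    E ≤ pCoreOf 2 G := by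
  have p2 := Nat.prime_two
  haveI := Fact.mk p2
  have hU := h.top.pcore 2
  have hU2 := Amb.isPGroup_pCoreOf 2 G
  have nU := Amb.le_normalizer_pCoreOf 2 G
  have o : ∀ l : ℕ, l.Prime → l ≠ 2 → pCoreOf l G = ⊥ := fun l hl l2 => by
    rw [eq_bot_iff, ← h0]
    exact le_oc (Amb.pCoreOf_le l G) (Amb.le_normalizer_pCoreOf l G)
      (FH.not_dvd_pgroup p2 hl l2.symm (Amb.isPGroup_pCoreOf l G))
  haveI := nrm nU hU.n
  have hG : G ≤ G ⊔ A := le_sup_left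
  have hA : A ≤ G ⊔ A := le_sup_right
  rw [← Qt.eq_bot_iff' (hE.le.trans hG), eq_bot_iff, ← qt_pcore (p := 2) hG]
  refine Solv.NA.le_pCoreOf_of_forall_centralizer (Qt.solvable hG hs) (Qt.pgroup (hE.le.trans hG) hE2)
    (Qt.mono hE.le) fun l hl => ?_
  by_cases l2 : l = 2
  · rw [l2, qt_pcore hG]; exact cb _
  haveI := Fact.mk hl
  set U := pCoreOf 2 G
  set V := pCoreOf l (FT.qt (G ⊔ A) U G)
  have hV : Iv (FT.qt (G ⊔ A) U A) (FT.qt (G ⊔ A) U G) V := (h.toHy.qt hG hA hU).top.pcore l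
  have y1 : qtc (G ⊔ A) U V ≤ G := by
    have := Qt.le_sup_of_le (Qt.qtc_le V) ((Qt.qt_qtc V).le.trans hV.le)
    rwa [sup_eq_right.2 hU.le] at this
  have hY : Iv A G (qtc (G ⊔ A) U V) := ⟨y1, Qt.le_norm_qtc hA hV.n⟩
  have y2 : G ≤ 𝒩(qtc (G ⊔ A) U V) := Qt.le_norm_qtc hG (Amb.le_normalizer_pCoreOf l _)
  have y3 := (h.toHy.sub hY).qt_le_sy hl (y1.trans hG) hA (hU.tom (Qt.le_qtc (hU.le.trans hG) V))
    (hV.tom (Qt.qt_qtc V).ge) (Amb.isPGroup_pCoreOf l _)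
  rw [h.sy_sub hl hY] at y3
  have y4 := Qt.le_sup_of_le (Qt.qtc_le V) ((Qt.qt_qtc V).le.trans y3)
  have y5 := (h.syl hl hY).frattini_sup y1 y2
  have hR := hY.inf (h.sy_iv hl).n
  have hRl : IsPGroup l ↥(qtc (G ⊔ A) U V ⊓ sy A G l) := (h.sy_pg hl).to_le inf_le_right
  set R := qtc (G ⊔ A) U V ⊓ sy A G l
  have hS := h.sy_iv p2
  have y6 : sy A G 2 ≤ U ⊔ (G ⊓ 𝒩(R) ⊓ sy A G 2) := by
    rw [← sup_inf_modular (Or.inl (inf_le_left.trans nU)) (Hy.le_sy hU hU2)]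
    refine le_inf (hS.le.trans (y5.ge.trans (sup_le (y4.trans (sup_le_sup_left ?_ _)) le_sup_right))) le_rfl
    exact le_inf hR.le (le_norm_self R)
  have hF := (h.top.norm hR).inf hS.n
  have y7 := h.tower hl l2 hF ((h.sy_pg p2).to_le inf_le_right) hU hU2 (hF.le.trans nU) hR hRl
    (inf_le_left.trans inf_le_right) (hR.le.trans nU) (by
      rw [eq_bot_iff, ← o l hl l2]
      refine Solv.NA.le_pCoreOf_of_forall_centralizer hs (pg_inf hRl _) (inf_le_left.trans hR.le)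
        fun m hm => ?_
      by_cases m2 : m = 2
      · rw [m2]; exact inf_le_right
      · rw [o m hm m2]; exact cb _)
  refine (Qt.mono ((Hy.le_sy hE hE2).trans y6)).trans ?_
  rw [Qt.qt_sup_left (hU.le.trans hG) (hF.le.trans hG)]
  refine le_trans ?_ (cent_anti y3)
  rw [Qt.le_cent_iff' (hF.le.trans hG) (hR.le.trans hG), comm_eq_bot_iff.2 y7]
  exact bot_le

/-- `O(H) H₂` is normal in an invariant solvable subgroup `H`. -/
theorem fa (hH : Iv A G H) (hs : Group.IsSolvable H) : H ≤ 𝒩(oc H ⊔ (H ⊓ sy A G 2)) := by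
  have p2 := Nat.prime_two
  have k := h.sub hH
  have hO := k.top.oc
  haveI := nrm (norm_oc (le_norm_self H)) hO.n
  have hG : H ≤ H ⊔ A := le_sup_left
  have hA : A ≤ H ⊔ A := le_sup_right
  have k' := k.qt hG hA hO
  rw [← h.sy_sub p2 hH]
  have hS := k.sy_iv p2
  refine Qt.le_norm_sup (hO.le.trans hG) hG (hS.le.trans hG) ?_
  rw [le_antisymm (k'.fa0 (Qt.solvable hG hs) (qt_oc hG) (Hy.qt_iv hS)
    (Qt.pgroup (hS.le.trans hG) (k.sy_pg p2)))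
    (k.qt_le_sy p2 hG hA hO (k'.top.pcore 2) (Amb.isPGroup_pCoreOf 2 _))]
  exact Amb.le_normalizer_pCoreOf 2 _

theorem fa1 (hH : Iv A G H) (hs : Group.IsSolvable H) : H ≤ oc H ⊔ (H ⊓ 𝒩(H ⊓ sy A G 2)) := by
  haveI := Fact.mk Nat.prime_two
  have := ((h.syl Nat.prime_two hH).mono (K := oc H ⊔ (H ⊓ sy A G 2)) le_sup_right
    (sup_le (oc_le H) inf_le_left)).frattini_sup (sup_le (oc_le H) inf_le_left) (h.fa hH hs)
  exact this.ge.trans (sup_le (sup_le_sup_left (le_inf inf_le_left (le_norm_self _)) _) le_sup_right)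

theorem fa2 (hH : Iv A G H) (hs : Group.IsSolvable H) (hX : X ≤ H) (hXo : ¬ 2 ∣ Nat.card X)
    (hE : E ≤ H ⊓ sy A G 2) (hc : X ≤ ⁅X, E⁆) : X ≤ oc H :=
  B12.le_of_le_sup_of_isPi (π := {2}) (norm_oc (inf_le_left.trans (le_norm_self H)))
    (B12.isPi_of_isPGroup Nat.prime_two ((h.sy_pg Nat.prime_two).to_le inf_le_right) rfl)
    ((B12.isPi_compl_singleton_iff Nat.prime_two).2 hXo)
    (hc.trans ((commutator_mono hX (hE.trans le_sup_right)).trans (comm_le_right (h.fa hH hs))))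

end H2

end Cfsg.Agent.MP
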