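import Mathlib
import Cfsg.Agent.MP.Fa
import Cfsg.Agent.S0144

/-! S1917: maximal invariant `{p, q}`-subgroups, Bender's argument. -/

set_option autoImplicit false
set_option linter.unusedSectionVars false
set_option linter.unusedVariables false

namespace Cfsg.Agent.MP

open Cfsg Cfsg.Agent.FT Cfsg.Agent.PLocal Subgroup
open Cfsg.Agent.PLocal.Amb (IsSyl)
open Cfsg.Agent.PLocal.CommMod (centMod)
open scoped commutatorElement Pointwise

universe u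

variable {Γ : Type u} [Group Γ]

/-- An invariant `{p, q}`-subgroup. -/
structure PQ (A G : Subgroup Γ) (p q : ℕ) (H : Subgroup Γ) : Prop extends Iv A G H where
  pi : ∀ s : ℕ, s.Prime → s ∣ Nat.card H → s = p ∨ s = q

/-- A maximal invariant `{p, q}`-subgroup. -/
structure Mx (A G : Subgroup Γ) (p q : ℕ) (H : Subgroup Γ) : Prop extends PQ A G p q H where
  mx : ∀ K, PQ A G p q K → H ≤ K → K ≤ H

variable [Finite Γ] {r p q t : ℕ} {A G X Y Z H B B' P Q E W N U R K D M : Subgroup Γ}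

theorem PQ.symm (h : PQ A G p q H) : PQ A G q p H := ⟨h.toIv, fun s hs hd => (h.pi s hs hd).symm⟩

theorem Mx.symm (h : Mx A G p q H) : Mx A G q p H := ⟨h.toPQ.symm, fun K hK => h.mx K hK.symm⟩

theorem PQ.sub (h : PQ A G p q H) (hX : Iv A G X) (hl : X ≤ H) : PQ A G p q X :=
  ⟨hX, fun s hs hd => h.pi s hs (hd.trans (card_dvd_of_le hl))⟩

theorem Iv.pql (hX : Iv A G X) (hp : p.Prime) (h : IsPGroup p X) (q : ℕ) : PQ A G p q X :=
  ⟨hX, fun s hs hd => Or.inl ((B12.isPi_singleton_iff hp).2 h s hs hd)⟩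

theorem Iv.pqr (hX : Iv A G X) (hq : q.Prime) (h : IsPGroup q X) (p : ℕ) : PQ A G p q X :=
  (hX.pql hq h p).symm

theorem PQ.sup (h : PQ A G p q X) (h' : PQ A G p q Y) (hn : Y ≤ 𝒩(X)) : PQ A G p q (X ⊔ Y) :=
  ⟨h.toIv.sup h'.toIv, fun s hs hd =>
    (hs.dvd_mul.1 (hd.trans (B12.card_sup_dvd hn))).elim (h.pi s hs) (h'.pi s hs)⟩

theorem PQ.card (h : PQ A G p q H) (hp : p.Prime) (hq : q.Prime) :
    ∃ a b, Nat.card H = p ^ a * q ^ b := by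
  obtain ⟨a, m, hm, e⟩ := Nat.exists_eq_pow_mul_and_not_dvd (Nat.card_pos (α := H)).ne' p hp.ne_one
  have m0 : m ≠ 0 := fun e' => hm (e' ▸ dvd_zero p)
  exact ⟨a, _, e.trans (congrArg _ (Nat.eq_prime_pow_of_unique_prime_dvd m0 fun hs hd =>
    (h.pi _ hs (e ▸ hd.mul_left _)).resolve_left fun e' => hm (e' ▸ hd)))⟩

theorem PQ.solv (h : PQ A G p q H) (hp : p.Prime) (hq : q.Prime) : Group.IsSolvable H := by
  obtain ⟨a, b, e⟩ := h.card hp hq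
  exact S0144.result p q a b hp hq e

theorem PQ.pg (h : PQ A G p q H) (hp : p.Prime) (hX : X ≤ H) (hq : ¬ q ∣ Nat.card X) : IsPGroup p X :=
  (B12.isPi_singleton_iff hp).1 fun s hs hd =>
    (h.pi s hs (hd.trans (card_dvd_of_le hX))).resolve_right fun e => hq (e ▸ hd)

theorem ex_mx (h : PQ A G p q H) : ∃ K, Mx A G p q K ∧ H ≤ K := by
  obtain ⟨K, hK, hm⟩ := (wellFounded_gt (α := Subgroup Γ)).has_min {K | PQ A G p q K ∧ H ≤ K}
    ⟨H, h, le_rfl⟩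
  exact ⟨K, ⟨hK.1, fun L hL hl => by
    by_contra hn
    exact hm L ⟨hL, hK.2.trans hl⟩ (lt_of_le_not_ge hl hn)⟩, hK.2⟩

theorem core_comm (hp : p.Prime) (hq : q.Prime) (hne : p ≠ q) (H : Subgroup Γ) :
    pCoreOf p H ≤ 𝒞(pCoreOf q H) :=
  le_cent_of_inf_eq_bot ((Amb.pCoreOf_le _ _).trans (Amb.le_normalizer_pCoreOf _ _))
    ((Amb.pCoreOf_le _ _).trans (Amb.le_normalizer_pCoreOf _ _))
    (pq_bot hp hq hne (Amb.isPGroup_pCoreOf _ _) (Amb.isPGroup_pCoreOf _ _))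

theorem z_ne (hp : p.Prime) (hP : IsPGroup p P) (h : P ≠ ⊥) : P ⊓ 𝒞(P) ≠ ⊥ :=
  haveI := Fact.mk hp
  Amb.inf_centralizer_ne_bot hP hP (le_norm_self P) h

/-- `O_p(C_K(U)) ≤ O_p(K)` for a `q`-subgroup `U` of a `{p, q}`-group `K`. -/
theorem PQ.core (hK : PQ A G p q K) (hp : p.Prime) (hq : q.Prime) (hne : p ≠ q) (hU : U ≤ K)
    (hUq : IsPGroup q U) (hC : K ⊓ 𝒞(U) ≤ H) (hX : X ≤ pCoreOf p H) (hXK : X ≤ K ⊓ 𝒞(U)) :
    X ≤ pCoreOf p K := by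
  haveI := Fact.mk hq
  have h1 : pCoreOf p H ⊓ (K ⊓ 𝒞(U)) ≤ piCoreOf {q}ᶜ (K ⊓ 𝒞(U)) := B12.le_piCoreOf
    ⟨inf_le_right, norm_inf (hC.trans (Amb.le_normalizer_pCoreOf p H)) (le_norm_self _)⟩
    (B12.isPi_of_isPGroup hp (pg_inf (Amb.isPGroup_pCoreOf p H) _) hne)
  refine ((le_inf hX hXK).trans (h1.trans (bg1_15b (hK.solv hp hq) hUq hU))).trans ?_
  exact Amb.le_pCoreOf (hK.pg hp (B7.piCoreOf_le _ K)
    ((B12.isPi_compl_singleton_iff hq).1 (B12.piCoreOf_isPi _ K))) (B7.piCoreOf_le _ K)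
    (B7.le_normalizer_piCoreOf _ K)

namespace Hy

variable (h : Hy r A G) (hp : p.Prime) (hq : q.Prime) (hne : p ≠ q)
include h hp hq hne

theorem pq_mul (hH : PQ A G p q H) {x : Γ} (hx : x ∈ H) :
    ∃ a ∈ H ⊓ sy A G p, ∃ b ∈ H ⊓ sy A G q, a * b = x := by
  haveI := Fact.mk hp
  haveI := Fact.mk hq
  obtain ⟨a, b, e⟩ := hH.card hp hq
  have k := Grp.coe_eq_mul_of_card_le (H := H ⊓ sy A G p) (K := H ⊓ sy A G q) (L := H) inf_le_left
    inf_le_left (by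
      rw [pq_bot hp hq hne ((h.sy_pg hp).to_le inf_le_right) ((h.sy_pg hq).to_le inf_le_right),
        card_bot, one_mul, (h.syl hp hH.toIv).card_eq_pow, (h.syl hq hH.toIv).card_eq_pow, e,
        Nat.factorization_mul (pow_ne_zero _ hp.ne_zero) (pow_ne_zero _ hq.ne_zero),
        hp.factorization_pow, hq.factorization_pow]
      simp [hne, hne.symm])
  exact Set.mem_mul.1 (k ▸ hx : x ∈ ((H ⊓ sy A G p : Subgroup Γ) : Set Γ) * (H ⊓ sy A G q : Subgroup Γ))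

theorem pq_le (hH : PQ A G p q H) (h1 : H ⊓ sy A G p ≤ K) (h2 : H ⊓ sy A G q ≤ K) : H ≤ K :=
  fun x hx => by
    obtain ⟨a, ha, b, hb, rfl⟩ := h.pq_mul hp hq hne hH hx
    exact K.mul_mem (h1 ha) (h2 hb)

/-- A solvable invariant subgroup has a largest invariant `{p, q}`-subgroup. -/
theorem ex_loc (hN : Iv A G N) (hs : Group.IsSolvable N) :
    ∃ K, Mx A G p q K ∧ ∀ X, PQ A G p q X → X ≤ N → X ≤ K := by
  obtain ⟨L, hL, hA⟩ := Solv.Pi.exists_invariant_hallOf {p, q} hN.n (h.cop le_rfl hN.le)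
  have hL' : PQ A G p q L := ⟨⟨hL.1.trans hN.le, hA⟩, hL.2.1⟩
  have key : ∀ s : ℕ, s.Prime → s ∈ ({p, q} : Set ℕ) → N ⊓ sy A G s ≤ L := fun s hs hm => by
    haveI := Fact.mk hs
    have k := h.syl hs hL'.toIv
    have k2 := Amb.isSyl_of_not_dvd_relIndex k.pgrp (k.le.trans hL.1) (by
      rw [← relIndex_mul_relIndex _ L N k.le hL.1, hs.dvd_mul, not_or]
      exact ⟨k.not_dvd_relIndex, hL.2.2 s hs hm⟩)
    exact (k2.max _ ((h.sy_pg hs).to_le inf_le_right) (inf_le_inf_right _ hL.1) inf_le_left).trans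
      inf_le_left
  obtain ⟨K, hK, hl⟩ := ex_mx hL'
  exact ⟨K, hK, fun X hX hXN => (h.pq_le hp hq hne hX
    ((inf_le_inf_right _ hXN).trans (key p hp (Or.inl rfl)))
    ((inf_le_inf_right _ hXN).trans (key q hq (Or.inr rfl)))).trans hl⟩

theorem mx_le (hH : Mx A G p q H) (hN : Iv A G N) (hs : Group.IsSolvable N) (hl : H ≤ N)
    (hX : PQ A G p q X) (hXN : X ≤ N) : X ≤ H := by
  obtain ⟨K, hK, k⟩ := h.ex_loc hp hq hne hN hs
  exact (k X hX hXN).trans (hH.mx K hK.toPQ (k H hH.toPQ hl))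

/-- There is a largest invariant `{p, q}`-subgroup containing the Sylow `p`-subgroup. -/
theorem uniq (hM : Mx A G p q M) (hPM : sy A G p ≤ M) (hH : PQ A G p q H) (hPH : sy A G p ≤ H) :
    H ≤ M := by
  set P := sy A G p
  set Q := sy A G q
  have k1 : ∀ H, PQ A G p q H → P ≤ H → ∀ g ∈ H, g • ((P : Set Γ) * Q) ⊆ (P : Set Γ) * Q := by
    rintro H hH hPH g hg _ ⟨_, ⟨x, hx, y, hy, rfl⟩, rfl⟩
    obtain ⟨a, ha, b, hb, e⟩ := h.pq_mul hp hq hne hH (H.mul_mem hg (hPH hx))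
    exact ⟨a, ha.2, b * y, Q.mul_mem hb.2 hy, by simp only [smul_eq_mul]; rw [← mul_assoc, e, mul_assoc]⟩
  have k2 : ∀ H, PQ A G p q H → P ≤ H → H ≤ MulAction.stabilizer Γ ((P : Set Γ) * Q) :=
    fun H hH hPH g hg => (k1 H hH hPH g hg).antisymm (by
      rw [Set.subset_smul_set_iff]; exact k1 H hH hPH _ (H.inv_mem hg))
  have k3 : ((M ⊔ H : Subgroup Γ) : Set Γ) = (P : Set Γ) * ((M ⊔ H) ⊓ Q : Subgroup Γ) := by
    refine Set.Subset.antisymm (fun j hj => ?_) ?_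
    · have e : j • ((P : Set Γ) * Q) = (P : Set Γ) * Q := sup_le (k2 M hM.toPQ hPM) (k2 H hH hPH) hj
      obtain ⟨x, hx, y, hy, e'⟩ : j ∈ (P : Set Γ) * Q :=
        e ▸ ⟨1, ⟨1, P.one_mem, 1, Q.one_mem, one_mul 1⟩, mul_one j⟩
      refine ⟨x, hx, y, ⟨?_, hy⟩, e'⟩
      have e'' : x * y = j := e'
      exact ((M ⊔ H).mul_mem_cancel_left ((hPM.trans le_sup_left) hx)).1 (e'' ▸ hj)
    · rintro _ ⟨x, hx, y, hy, rfl⟩
      exact (M ⊔ H).mul_mem ((hPM.trans le_sup_left) hx) hy.1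
  refine le_sup_right.trans (hM.mx (M ⊔ H) ⟨hM.toIv.sup hH.toIv, fun s hs hd => ?_⟩ le_sup_left)
  have e := Grp.card_mul_card_eq P ((M ⊔ H) ⊓ Q)
  rw [← k3] at e
  have hd' : s ∣ Nat.card P * Nat.card ↥((M ⊔ H) ⊓ Q) := e ▸ hd.mul_left _
  exact (hs.dvd_mul.1 hd').imp ((B12.isPi_singleton_iff hp).2 (h.sy_pg hp) s hs)
    ((B12.isPi_singleton_iff hq).2 ((h.sy_pg hq).to_le inf_le_right) s hs)

end Hy

namespace M0

variable (h : M0 r A G) (hp : p.Prime) (hq : q.Prime) (hne : p ≠ q)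
include h hp hq hne

/-- A maximal subgroup contains the `{p, q}`-part of the normalizer of a normal subgroup. -/
theorem mx_norm (hH : Mx A G p q H) (hD : Iv A G D) (h0 : D ≠ ⊥) (hDH : D ≤ H) (hn : H ≤ 𝒩(D))
    (hX : PQ A G p q X) (hXN : X ≤ 𝒩(D)) : X ≤ H :=
  h.mx_le hp hq hne hH (h.top.norm hD) (h.loc hD h0 (isSolvable_of_le hDH (hH.solv hp hq)))
    (le_inf hH.le hn) hX (le_inf hX.le hXN)

theorem ex_norm (hD : PQ A G p q D) (h0 : D ≠ ⊥) :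
    ∃ K, Mx A G p q K ∧ ∀ X, PQ A G p q X → X ≤ 𝒩(D) → X ≤ K := by
  obtain ⟨K, hK, k⟩ := h.ex_loc hp hq hne (h.top.norm hD.toIv) (h.loc hD.toIv h0 (hD.solv hp hq))
  exact ⟨K, hK, fun X hX hn => k X hX (le_inf hX.le hn)⟩

/-- The `{p, q}`-part of the normalizer of an invariant subgroup normal in `P`. -/
theorem le_of_syl (hM : Mx A G p q M) (hPM : sy A G p ≤ M) (hD : PQ A G p q D) (h0 : D ≠ ⊥)
    (hn : sy A G p ≤ 𝒩(D)) (hX : PQ A G p q X) (hXN : X ≤ 𝒩(D)) : X ≤ M := by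
  obtain ⟨K, hK, k⟩ := h.ex_norm hp hq hne hD h0
  exact (k X hX hXN).trans
    (h.uniq hp hq hne hM hPM hK.toPQ (k _ ((h.sy_iv hp).pql hp (h.sy_pg hp) q) hn))

theorem mx_core (hH : Mx A G p q H) (h0 : pCoreOf p H ≠ ⊥) (hX : PQ A G p q X)
    (hXN : X ≤ 𝒩(pCoreOf p H)) : X ≤ H :=
  h.mx_norm hp hq hne hH (hH.pcore p) h0 (Amb.pCoreOf_le p H) (Amb.le_normalizer_pCoreOf p H) hX hXN

omit h in
theorem bstep (hK : PQ A G p q K) (hR : R ≤ pCoreOf p H) (hU : U ≤ pCoreOf q H) (hU' : Iv A G U)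
    (hRK : R ≤ K) (hUK : U ≤ K) (cU : ∀ X, PQ A G p q X → X ≤ 𝒩(U) → X ≤ H) : R ≤ pCoreOf p K :=
  hK.core hp hq hne hUK ((Amb.isPGroup_pCoreOf q H).to_le hU)
    (cU _ (hK.sub (hK.cent hU') inf_le_left) (inf_le_right.trans (cent_le_norm U))) hR
    (le_inf hRK ((hR.trans (core_comm hp hq hne H)).trans (cent_anti hU)))

omit h in
theorem bstep2 (hK : PQ A G p q K) (hR : R ≤ pCoreOf p K)
    (cR : ∀ X, PQ A G p q X → X ≤ 𝒩(R) → X ≤ H) : pCoreOf q K ≤ H :=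
  cR _ (hK.sub (hK.pcore q) (Amb.pCoreOf_le q K))
    (((core_comm hq hp hne.symm K).trans (cent_anti hR)).trans (cent_le_norm R))

theorem ben_a (hH : Mx A G p q H) (h1 : pCoreOf p H ≠ ⊥) (h2 : pCoreOf q H ≠ ⊥) (hK : Mx A G p q K)
    (k1 : pCoreOf p H ≤ K) (k2 : pCoreOf q H ≤ K) : K = H := by
  have cp := fun X => h.mx_core hp hq hne hH h1 (X := X)
  have cq := fun X (hX : PQ A G p q X) => h.mx_core hq hp hne.symm hH.symm h2 hX.symm
  have a1 := bstep hp hq hne hK.toPQ le_rfl le_rfl (hH.pcore q) k1 k2 cq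
  have a2 := bstep hq hp hne.symm hK.toPQ.symm le_rfl le_rfl (hH.pcore p) k2 k1 fun X hX => cp X hX.symm
  have a3 := bstep2 hp hq hne hK.toPQ a1 cp
  have a4 := bstep2 hq hp hne.symm hK.toPQ.symm a2 fun X hX => cq X hX.symm
  have a5 := bstep hp hq hne hH.toPQ le_rfl le_rfl (hK.pcore q) a4 a3 fun X hX =>
    h.mx_core hq hp hne.symm hK.symm (fun e => h2 (eq_bot_iff.2 (e ▸ a2))) hX.symm
  have a6 := cp K hK.toPQ (le_antisymm a1 a5 ▸ Amb.le_normalizer_pCoreOf p K)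
  exact le_antisymm a6 (hK.mx H hH.toPQ a6)

theorem ben_b (hH : Mx A G p q H) (h1 : pCoreOf p H ≠ ⊥) (h2 : pCoreOf q H ≠ ⊥) (hR : Iv A G R)
    (h0 : R ≠ ⊥) (hRz : R ≤ 𝒵(pCoreOf p H)) (X : Subgroup Γ) (hX : PQ A G p q X) (hXN : X ≤ 𝒩(R)) :
    X ≤ H := by
  have l := hRz.trans inf_le_left
  obtain ⟨K, hK, k⟩ := h.ex_norm hp hq hne (hH.sub hR (l.trans (Amb.pCoreOf_le p H))) h0
  rw [← h.ben_a hp hq hne hH h1 h2 hK (k _ (hH.sub (hH.pcore p) (Amb.pCoreOf_le p H))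
    (le_norm_of_le_cent (le_cent_comm.1 (hRz.trans inf_le_right))))
    (k _ (hH.sub (hH.pcore q) (Amb.pCoreOf_le q H))
    (le_norm_of_le_cent ((core_comm hq hp hne.symm H).trans (cent_anti l))))]
  exact k X hX hXN

theorem ben_c (hH : Mx A G p q H) (hR : Iv A G R) (h0 : R ≠ ⊥) (hRz : R ≤ 𝒵(pCoreOf p H))
    (hU : Iv A G U) (h0' : U ≠ ⊥) (hUz : U ≤ 𝒵(pCoreOf q H)) (hK : Mx A G p q K) (hRK : R ≤ K)
    (hUK : U ≤ K) : K = H := by
  have l := hRz.trans inf_le_left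
  have l' := hUz.trans inf_le_left
  have h1 : pCoreOf p H ≠ ⊥ := fun e => h0 (eq_bot_iff.2 (e ▸ l))
  have h2 : pCoreOf q H ≠ ⊥ := fun e => h0' (eq_bot_iff.2 (e ▸ l'))
  have cp := h.ben_b hp hq hne hH h1 h2 hR h0 hRz
  have cq := h.ben_b hq hp hne.symm hH.symm h2 h1 hU h0' hUz
  have a1 := bstep hp hq hne hK.toPQ l l' hU hRK hUK fun X hX => cq X hX.symm
  have a2 := bstep hq hp hne.symm hK.toPQ.symm l' l hR hUK hRK fun X hX => cp X hX.symm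
  exact (h.ben_a hp hq hne hK (fun e => h0 (eq_bot_iff.2 (e ▸ a1))) (fun e => h0' (eq_bot_iff.2 (e ▸ a2)))
    hH (bstep2 hq hp hne.symm hK.toPQ.symm a2 cq) (bstep2 hp hq hne hK.toPQ a1 cp)).symm

theorem z_le (hH : Mx A G p q H) (h1 : pCoreOf p H ≠ ⊥) : 𝒵(sy A G p) ≤ H :=
  h.mx_core hp hq hne hH h1 (((h.sy_iv hp).cent (h.sy_iv hp)).pql hp (pg_inf (h.sy_pg hp) _) q)
    ((inf_le_right.trans (cent_anti (Hy.le_sy (hH.pcore p) (Amb.isPGroup_pCoreOf p H)))).trans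
      (cent_le_norm _))

theorem ben_d (hH : Mx A G p q H) (h1 : pCoreOf p H ≠ ⊥) (hP : ¬ sy A G p ≤ H) (hW : Iv A G W)
    (h0 : W ≠ ⊥) (hWz : W ≤ 𝒵(sy A G p)) : 𝒵(pCoreOf q H) ⊓ 𝒞(W) = ⊥ := by
  by_contra hn
  have hU := ((hH.pcore q).cent (hH.pcore q)).cent hW
  obtain ⟨K, hK, k⟩ := h.ex_norm hp hq hne (hW.pql hp ((h.sy_pg hp).to_le (hWz.trans inf_le_left)) q) h0
  have k1 := k _ ((h.sy_iv hp).pql hp (h.sy_pg hp) q)
    (le_norm_of_le_cent (le_cent_comm.1 (hWz.trans inf_le_right)))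
  refine hP (h.ben_c hp hq hne hH ((hH.pcore p).cent (hH.pcore p))
    (z_ne hp (Amb.isPGroup_pCoreOf p H) h1) le_rfl hU hn inf_le_left hK
    ((inf_le_left.trans (Hy.le_sy (hH.pcore p) (Amb.isPGroup_pCoreOf p H))).trans k1)
    (k _ (hU.pqr hq (pg_inf (pg_inf (Amb.isPGroup_pCoreOf q H) _) _) p)
      (inf_le_right.trans (cent_le_norm W))) ▸ k1)

end M0

/-- If `H ≠ M_p` has both cores nontrivial and `A` does not centralize `Z(P)`, then a line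
centralizes `P`. -/
theorem Mn.ben_e (h : Mn r A G) (hp : p.Prime) (hq : q.Prime) (hne : p ≠ q) (hH : Mx A G p q H)
    (h1 : pCoreOf p H ≠ ⊥) (h2 : pCoreOf q H ≠ ⊥) (hP : ¬ sy A G p ≤ H)
    (hz : ¬ 𝒵(sy A G p) ≤ 𝒞(A)) : ∃ B, Ln r A B ∧ sy A G p ≤ 𝒞(B) := by
  haveI := Fact.mk hp
  have k := h.h2
  have iP := h.sy_iv hp
  have pP := h.sy_pg hp
  have d := fun W => h.ben_d hp hq hne hH h1 hP (W := W)
  have zH := h.z_le hp hq hne hH h1
  set P := sy A G p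
  have iZ := iP.cent iP
  have iV := (hH.pcore q).cent (hH.pcore q)
  have pV : IsPGroup q ↥(𝒵(pCoreOf q H)) := pg_inf (Amb.isPGroup_pCoreOf q H) _
  have V0 := z_ne hq (Amb.isPGroup_pCoreOf q H) h2
  have nV : H ≤ 𝒩(𝒵(pCoreOf q H)) := norm_center (Amb.le_normalizer_pCoreOf q H)
  have b := fun R => h.ben_b hq hp hne.symm hH.symm h2 h1 (R := R)
  set V := 𝒵(pCoreOf q H)
  obtain ⟨B, hB, W0⟩ : ∃ B, Ln r A B ∧ ⁅𝒵(P) ⊓ 𝒞(B), A⁆ ≠ ⊥ := by
    by_contra hn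
    push Not at hn
    exact hz (k.gen' iZ inf_le_right fun B hB => (hn B hB).le.trans bot_le)
  refine ⟨B, hB, ?_⟩
  have iE := h.cl iZ hB.le
  have iW := h.star iE le_rfl
  have wE := h.star_le iE le_rfl
  have wz := wE.trans inf_le_left
  have pZ : IsPGroup p ↥(𝒵(P)) := pg_inf pP _
  have v1 : V ⊓ 𝒞(B) ≤ ⊥ := (le_inf inf_le_left (le_cent_comm.1 (k.f0 hq hp hne.symm hB (h.cl iV hB.le)
    iE (pg_inf pV _) (pg_inf pZ _) (norm_inf ((inf_le_left.trans zH).trans nV)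
    (inf_le_right.trans (le_norm_self _))) inf_le_right inf_le_right))).trans (d _ iW W0 wz).le
  have v2 : ⁅P, B⁆ ≤ H := k.gen_star hp iP pP hB fun D hD e => by
    have i := h.star (h.cl iV hD.le) le_rfl
    refine b _ i (fun e' => V0 (eq_bot_iff.2 ((le_inf le_rfl (comm_eq_bot_iff.1 ?_)).trans (d _ iW W0 wz).le)))
      ((h.star_le (h.cl iV hD.le) le_rfl).trans inf_le_left) _
      ((h.star (h.cl iP hD.le) le_rfl).pqr hp (pg_comm (pg_inf pP _) (h.cl iP hD.le).n) q)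
      (le_norm_of_le_cent (k.f2 hp hq hne hD (h.solC hD) iP pP iV pV))
    refine k.w1' hq hp hne.symm hB hD e.symm iV iW pV (pZ.to_le wz) ((wz.trans zH).trans nV)
      (wE.trans inf_le_right) (h.cc iE le_rfl) (eq_bot_iff.2 (le_trans (commutator_mono
        (inf_le_inf_right _ (comm_le_left ((wz.trans zH).trans nV))) le_rfl) e'.le))
  have v3 : ⁅P, B⁆ ≤ 𝒞(V) := (h.cc iP hB.le).trans (k.w2' hq hp hne.symm hB iV (h.star iP hB.le) pV
    (pg_comm pP (hB.le.trans iP.n)) (v2.trans nV) (v1.trans bot_le))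
  by_contra hn
  refine V0 (eq_bot_iff.2 ((le_inf le_rfl (le_cent_comm.1 (inf_le_left.trans v3))).trans
    (d _ ((h.star iP hB.le).cent iP) (Amb.inf_centralizer_ne_bot pP (pg_comm pP (hB.le.trans iP.n))
      (norm_comm_l P B) fun e => hn (comm_eq_bot_iff.1 e))
      (inf_le_inf_right _ (h.star_le iP hB.le))).le))

end Cfsg.Agent.MP
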