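import Mathlib
import Cfsg.Agent.MP.Ben
import Cfsg.Agent.S0621

/-! S1917: the invariant `{2, t}`-subgroups. -/

set_option autoImplicit false
set_option linter.unusedSectionVars false
set_option linter.unusedVariables false

namespace Cfsg.Agent.MP

open Cfsg Cfsg.Agent.FT Cfsg.Agent.PLocal Subgroup
open Cfsg.Agent.PLocal.Amb (IsSyl)
open Cfsg.Agent.PLocal.CommMod (centMod)
open scoped commutatorElement Pointwise

universe u

variable {Γ : Type u} [Group Γ]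

/-- The minimal counterexample with the two global facts. -/
structure Mg (r : ℕ) (A G : Subgroup Γ) : Prop extends Mn r A G where
  g0 : ∀ B, Ln r A B → ¬ sy A G 2 ≤ 𝒞(B)
  c2 : ¬ ∀ N, Iv A G N → Group.IsSolvable N → N ≤ 𝒩(N ⊓ sy A G 2)

/-- Some invariant `2`-group acts nontrivially on an invariant `t`-group. -/
def Wd (A G : Subgroup Γ) (t : ℕ) : Prop :=
  ∃ E R, Iv A G E ∧ Iv A G R ∧ IsPGroup 2 E ∧ IsPGroup t R ∧ E ≤ 𝒩(R) ∧ ¬ E ≤ 𝒞(R)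

variable [Finite Γ] {r p q t : ℕ} {A G X Y Z H B B' P Q E W N U R K D M T : Subgroup Γ}

theorem two_dvd_sl : 2 ∣ Nat.card (Matrix.SpecialLinearGroup (Fin 2) (ZMod 3)) := by
  let g : Matrix.SpecialLinearGroup (Fin 2) (ZMod 3) := ⟨!![2, 0; 0, 2], by decide⟩
  have o : orderOf g = 2 := orderOf_eq_prime (by decide) fun e => absurd
    (congrArg (fun x : Matrix.SpecialLinearGroup (Fin 2) (ZMod 3) => x.1 0 0) e) (by decide)
  exact o.symm.dvd.trans (_root_.orderOf_dvd_natCard g)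

/-- Thompson factorization for odd `p`. -/
theorem Hy.tf (h : Hy r A G) (hp : p.Prime) (p2 : p ≠ 2) (hH : Iv A G H) (hs : Group.IsSolvable H)
    (h0 : ∀ N ≤ H, H ≤ 𝒩(N) → ¬ p ∣ Nat.card N → N = ⊥) (hT : IsSyl p T H)
    (h1 : H ⊓ 𝒞(omegaOne p (𝒵(T))) ≤ K) (h2 : H ⊓ 𝒩(thompsonSubgroupOf p T) ≤ K) : H ≤ K := by
  haveI := Fact.mk hp
  haveI := Fact.mk h.pr
  have hO : pPrimeCore p H = ⊥ := by
    have := h0 (piCoreOf {p}ᶜ H) (B7.piCoreOf_le _ H) (B7.le_normalizer_piCoreOf _ H)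
      ((B12.isPi_compl_singleton_iff hp).1 (B12.piCoreOf_isPi _ H))
    rwa [bg1_piCoreOf_compl, map_eq_bot_iff_of_injective _ H.subtype_injective] at this
  have hf : IsThompsonFactorizable p H := by
    by_contra hn
    obtain ⟨e, W, D, -, hD, -, -, -, _, ⟨φ⟩⟩ :=
      S0621.result H A hH.n h.el (h.ndv hH.le) isPSolvable_of_isSolvable hO hn
    obtain rfl := e.resolve_left p2
    haveI := Fact.mk Nat.prime_two
    refine h.odd (((two_dvd_sl.trans (Nat.card_congr φ.toEquiv).symm.dvd).trans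
      (card_quotient_dvd_card _)).trans (card_dvd_of_le (hD.trans (inf_le_inf_right _ hH.le))))
  obtain ⟨S, rfl⟩ := hT.exists_sylow_map
  intro g hg
  obtain ⟨x, hx, c, hc, n, hn, e⟩ := hf S ⟨g, hg⟩
  rw [hO, mem_bot] at hx
  rw [Amb.centralizer_eq_subgroupOf, map_omegaOne_center _ H.subtype_injective] at hc
  rw [Amb.normalizer_eq_subgroupOf, map_thompsonSubgroupOf _ H.subtype_injective] at hn
  rw [hx, one_mul] at e
  have e' : g = c * n := congrArg Subtype.val e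
  rw [e']
  exact K.mul_mem (h1 ⟨c.2, hc⟩) (h2 ⟨n.2, hn⟩)

theorem PQ.cent_core (hH : PQ A G p q H) (hp : p.Prime) (hq : q.Prime) (hE : E ≤ H) (hEp : IsPGroup p E)
    (h1 : E ≤ 𝒞(pCoreOf p H)) (h2 : E ≤ 𝒞(pCoreOf q H)) : E ≤ pCoreOf p H := by
  haveI := Fact.mk hp
  refine Solv.NA.le_pCoreOf_of_forall_centralizer (hH.solv hp hq) hEp hE fun l hl => ?_
  by_cases e1 : l = p
  · exact e1 ▸ h1
  by_cases e2 : l = q
  · exact e2 ▸ h2
  rw [FH.pgroup_eq_bot hl (Amb.isPGroup_pCoreOf l H) (Amb.pCoreOf_le l H)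
    fun hd => (hH.pi l hl hd).elim e1 e2]
  exact cb _

theorem PQ.oc_le (hH : PQ A G 2 t H) (ht : t.Prime) : oc H ≤ pCoreOf t H :=
  Amb.le_pCoreOf (hH.symm.pg ht (MP.oc_le H) (oc_odd H)) (MP.oc_le H) (norm_oc (le_norm_self H))

theorem H2.ex_line (h : H2 r A G) : ∃ B, Ln r A B := by
  haveI := Fact.mk h.pr
  obtain ⟨a, ha, h1⟩ := Sig.exists_ne_one_of_le_card (p := r) (B := A) (by
    rw [h.card]; exact Nat.le_self_pow two_ne_zero r)
  exact ⟨_, h.ln_zp ha h1⟩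

/-- If `S` centralizes `O_t(H)` then `H` is `2`-closed. -/
theorem H2.le_norm (h : H2 r A G) (ht : t.Prime) (hH : PQ A G 2 t H)
    (hc : H ⊓ sy A G 2 ≤ 𝒞(pCoreOf t H)) : H ≤ 𝒩(H ⊓ sy A G 2) :=
  (h.fa1 hH.toIv (hH.solv Nat.prime_two ht)).trans
    (sup_le ((hH.oc_le ht).trans (le_norm_of_le_cent (le_cent_comm.1 hc))) inf_le_right)

theorem H2.wide (h : H2 r A G) (ht : t.Prime) (t2 : t ≠ 2) (hw : Wd A G t) (hB : Ln r A B) :
    ¬ sy A G t ≤ 𝒞(B) := by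
  intro hT
  obtain ⟨E, R, hE, hR, hE2, hRt, hn, hc⟩ := hw
  obtain ⟨D, hD, k⟩ := h.ex_ln hE hc
  obtain ⟨D', hD', e1, e2⟩ := h.third hD hB
  have iE := h.cl hE hD.le
  exact k (comm_bot'.1 (h.w1' ht Nat.prime_two t2 hD hD' e1.symm hR iE hRt (pg_inf hE2 _)
    (inf_le_left.trans hn) inf_le_right (h.two_star iE (pg_inf hE2 _))
    (comm_eq_bot_iff.2 (h.cent2 hB hD' e2.symm
      (((comm_le_left (inf_le_left.trans hn)).trans (Hy.le_sy hR hRt)).trans hT)))))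

namespace Mg

variable (h : Mg r A G)
include h

theorem s_ne : sy A G 2 ≠ ⊥ := fun e => by
  obtain ⟨B, hB⟩ := h.h2.ex_line
  exact h.g0 B hB (e ▸ bot_le)

theorem iS : Iv A G (sy A G 2) := h.sy_iv Nat.prime_two

theorem pS : IsPGroup 2 (sy A G 2) := h.sy_pg Nat.prime_two

theorem qS (t : ℕ) : PQ A G 2 t (sy A G 2) := h.iS.pql Nat.prime_two h.pS t

theorem zS : ¬ 𝒵(sy A G 2) ≤ 𝒞(A) := fun e => z_ne Nat.prime_two h.pS h.s_ne
  (eq_bot_iff.2 ((le_inf inf_le_left e).trans (h.two_bot h.iS.le h.pS).le))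

theorem l_ne (hB : Ln r A B) : ⁅sy A G 2, B⁆ ≠ ⊥ := fun e => h.g0 B hB (comm_eq_bot_iff.1 e)

variable (ht : t.Prime) (t2 : t ≠ 2)
include ht t2

theorem qT : PQ A G 2 t (sy A G t) := (h.sy_iv ht).pqr ht (h.sy_pg ht) 2

theorem le_of_t (hH : Mx A G 2 t H) (h0 : pCoreOf t H = ⊥) : sy A G 2 ≤ H := by
  have p2 := Nat.prime_two
  haveI := Fact.mk p2
  by_cases e : H ⊓ sy A G 2 = ⊥
  · have k : H ≤ sy A G t := h.pq_le p2 ht t2.symm hH.toPQ (e.le.trans bot_le) inf_le_right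
    rw [Amb.pCoreOf_eq_self ((h.sy_pg ht).to_le k)] at h0
    exact hH.mx _ (h.qS t) (h0.le.trans bot_le)
  · have i := hH.inf h.iS.n
    have k := h.mx_norm p2 ht t2.symm hH i e inf_le_left (h.h2.le_norm ht hH.toPQ (h0 ▸ cb _))
      ((h.iS.norm i).pql p2 (pg_inf h.pS _) t) inf_le_right
    exact (Amb.eq_of_inf_normalizer_le h.pS inf_le_right (le_inf k inf_le_left)).ge.trans inf_le_left

theorem le_of_two (hH : Mx A G 2 t H) (h0 : pCoreOf 2 H ≠ ⊥) : sy A G 2 ≤ H := by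
  by_cases e : pCoreOf t H = ⊥
  · exact h.le_of_t ht t2 hH e
  by_contra hn
  obtain ⟨B, hB, k⟩ := h.ben_e Nat.prime_two ht t2.symm hH h0 e hn h.zS
  exact h.g0 B hB k

theorem t_ne (hH : Mx A G 2 t H) (h0 : pCoreOf 2 H = ⊥) : pCoreOf t H ≠ ⊥ := fun e => by
  have k := h.le_of_t ht t2 hH e
  have k2 := h.h2.le_norm ht hH.toPQ (e ▸ cb _)
  rw [inf_eq_right.2 k] at k2
  exact h.s_ne (eq_bot_iff.2 (h0 ▸ Amb.le_pCoreOf h.pS k k2))

theorem wd1 (hz : 𝒵(sy A G t) ⊓ 𝒞(A) ≠ ⊥) (hH : Mx A G 2 t H) (h0 : pCoreOf 2 H = ⊥) :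
    sy A G t ≤ H := by
  have p2 := Nat.prime_two
  have iT := h.sy_iv ht
  have iW := h.cl (iT.cent iT) le_rfl
  have wH := inf_le_left.trans (h.z_le ht p2 t2 hH.symm (h.t_ne ht t2 hH h0)) (b := 𝒵(sy A G t))
    (a := 𝒵(sy A G t) ⊓ 𝒞(A))
  have wS := (le_inf iW.le inf_le_right).trans (h.c_norm p2)
  have wT : 𝒵(sy A G t) ⊓ 𝒞(A) ≤ 𝒞(sy A G t) := inf_le_left.trans inf_le_right
  have pW : IsPGroup t ↥(𝒵(sy A G t) ⊓ 𝒞(A)) := pg_inf (pg_inf (h.sy_pg ht) _) _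
  set W := 𝒵(sy A G t) ⊓ 𝒞(A)
  have k1 : ⁅H, W⁆ ≤ sy A G 2 := commutator_le.2 fun x hx w hw => by
    obtain ⟨a, ha, b, hb, rfl⟩ := h.pq_mul p2 ht t2.symm hH.toPQ hx
    have e : ⁅a * b, w⁆ = a * (w * a⁻¹ * w⁻¹) := by
      rw [commutatorElement_def, mul_assoc a b w, mem_cent_iff.1 (wT hw) b hb.2]; group
    rw [e]
    exact mul_mem ha.2 (Amb.conj_mem_of_mem_normalizer (wS hw) (inv_mem ha.2))
  have k2 : H ≤ 𝒞(W) := comm_eq_bot_iff.1 (eq_bot_iff.2 (h0 ▸ Amb.le_pCoreOf (h.pS.to_le k1)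
    (comm_le_left (wH.trans (le_norm_self H))) (norm_comm_l H W)))
  obtain ⟨K, hK, k⟩ := h.ex_norm p2 ht t2.symm (iW.pqr ht pW 2) hz
  exact (k _ (h.qT ht t2) (le_norm_of_le_cent (le_cent_comm.1 wT))).trans
    (hH.mx K hK.toPQ (k H hH.toPQ (le_norm_of_le_cent k2)))

theorem wd_both (hw : Wd A G t) (hz : ¬ 𝒵(sy A G t) ≤ 𝒞(A)) (hH : Mx A G 2 t H)
    (h1 : pCoreOf 2 H ≠ ⊥) (h2 : pCoreOf t H ≠ ⊥) : sy A G t ≤ H := by
  by_contra hn
  obtain ⟨B, hB, k⟩ := h.ben_e ht Nat.prime_two t2 hH.symm h2 h1 hn hz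
  exact h.h2.wide ht t2 hw hB k

theorem wd2 (hw : Wd A G t) (hH : Mx A G 2 t H) (h0 : pCoreOf 2 H = ⊥) : sy A G t ≤ H := by
  by_cases hz : 𝒵(sy A G t) ⊓ 𝒞(A) = ⊥
  swap
  · exact h.wd1 ht t2 hz hH h0
  have p2 := Nat.prime_two
  haveI := Fact.mk ht
  have iT := h.sy_iv ht
  have pT := h.sy_pg ht
  have qT := h.qT ht t2
  obtain ⟨B, hB⟩ := h.h2.ex_line
  have z0 := z_ne ht pT fun e => h.h2.wide ht t2 hw hB (e ▸ bot_le)
  have bo := fun K => h.wd_both ht t2 hw (fun e => z0 (eq_bot_iff.2 ((le_inf le_rfl e).trans hz.le))) (H := K)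
  obtain ⟨M, hM, hTM⟩ := ex_mx qT
  have iD := (iT.cent iT).omega t
  have dM : ∀ X, PQ A G 2 t X → X ≤ 𝒞(omegaOne t (𝒵(sy A G t))) → X ≤ M := fun X hX hc =>
    h.le_of_syl ht p2 t2 hM.symm hTM (iD.pql ht (pT.to_le ((omegaOne_le _).trans inf_le_left)) 2)
      (omegaOne_ne_bot_of_isPGroup (pg_inf pT _) z0)
      ((norm_center (le_norm_self _)).trans (normalizer_le_normalizer_omegaOne _)) hX.symm
      (le_norm_of_le_cent hc)
  by_contra hn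
  obtain ⟨_, ⟨H, hH, h0, hn, rfl⟩, hm⟩ := (wellFounded_gt (α := Subgroup Γ)).has_min
    {X | ∃ H, Mx A G 2 t H ∧ pCoreOf 2 H = ⊥ ∧ ¬ sy A G t ≤ H ∧ H ⊓ sy A G t = X}
    ⟨_, H, hH, h0, hn, rfl⟩
  have c0 := h.t_ne ht t2 hH h0
  have zH := h.z_le ht p2 t2 hH.symm c0
  set T := sy A G t
  have i1 := hH.inf iT.n
  have p1 : IsPGroup t ↥(H ⊓ T) := pT.to_le inf_le_right
  have d1 : omegaOne t (𝒵(T)) ≤ omegaOne t (𝒵(H ⊓ T)) :=
    omegaOne_mono (le_inf (le_inf zH inf_le_left) (inf_le_right.trans (cent_anti inf_le_right)))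
  refine hn (hTM.trans (hH.mx M hM.toPQ (h.tf ht t2 hH.toIv (hH.solv p2 ht) (fun N h1 h2 h3 => ?_)
    (h.syl ht hH.toIv) (dM _ (hH.sub (hH.cent ((i1.cent i1).omega t)) inf_le_left)
      (inf_le_right.trans (cent_anti d1))) ?_)))
  · exact eq_bot_iff.2 (h0 ▸ Amb.le_pCoreOf (hH.pg p2 h1 h3) h1 h2)
  have jn := normalizer_le_normalizer_thompsonSubgroupOf (p := t) (H ⊓ T)
  have jl := thompsonSubgroupOf_le (p := t) (H ⊓ T)
  have jd := d1.trans (omegaOne_center_le_thompsonSubgroupOf (p := t) (H ⊓ T))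
  have j0 := thompsonSubgroupOf_ne_bot_of_isPGroup p1 fun e => c0 (eq_bot_iff.2 (e ▸ le_inf
    (Amb.pCoreOf_le t H) (Hy.le_sy (hH.pcore t) (Amb.isPGroup_pCoreOf t H))))
  set J := thompsonSubgroupOf t (H ⊓ T)
  have iJ : Iv A G J := ⟨jl.trans i1.le, i1.n.trans jn⟩
  have qJ := iJ.pqr ht (p1.to_le jl) 2
  have qX := hH.sub (hH.norm iJ) inf_le_left
  obtain ⟨K, hK, k⟩ := h.ex_norm p2 ht t2.symm qJ j0
  have xK := k _ qX inf_le_right
  by_cases tK : T ≤ K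
  · exact xK.trans (h.uniq ht p2 t2 hM.symm hTM hK.toPQ.symm tK)
  have lt : H ⊓ T < K ⊓ T := (Amb.lt_inf_normalizer pT (inf_lt_right.2 hn)).trans_le
    (le_inf (k _ ((iT.norm i1).pqr ht (pg_inf pT _) 2) (inf_le_right.trans jn)) inf_le_left)
  have k2 : pCoreOf t K = ⊥ := by
    by_contra e
    exact tK (bo K hK (fun e' => hm _ ⟨K, hK, e', tK, rfl⟩ lt) e)
  have k3 := h.h2.le_norm ht hK.toPQ (k2 ▸ cb _)
  refine h.pq_le p2 ht t2.symm qX (dM _ (qX.sub (qX.inf h.iS.n) inf_le_left)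
    (le_trans ?_ (cent_anti jd))) (inf_le_right.trans hTM)
  rw [← comm_eq_bot_iff, eq_bot_iff, ← pq_bot p2 ht t2.symm h.pS (p1.to_le jl)]
  refine le_inf (((commutator_mono (inf_le_inf_right _ xK) le_rfl).trans
    (comm_le_left ((k J qJ (le_norm_self J)).trans k3))).trans inf_le_right) ?_
  exact comm_le_right (inf_le_left.trans inf_le_right)

theorem wd_y (hw : Wd A G t) {M' : Subgroup Γ} (hM : Mx A G 2 t M) (hSM : sy A G 2 ≤ M)
    (hn : ¬ sy A G t ≤ M) (hM' : Mx A G 2 t M') (hTM : sy A G t ≤ M')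
    (di : ∀ X, PQ A G 2 t X → X ≤ M ∨ X ≤ M') : M' ⊓ sy A G 2 ≠ ⊥ := by
  intro y0
  have p2 := Nat.prime_two
  have iT := h.sy_iv ht
  have pT := h.sy_pg ht
  obtain ⟨E, R, hE, hR, hE2, hRt, hER, hc⟩ := id hw
  have eS := Hy.le_sy hE hE2
  rcases di _ ((hR.pqr ht hRt 2).sup (hE.pql p2 hE2 t) hER) with k | k
  swap
  · rw [eq_bot_iff.2 ((le_inf (le_sup_right.trans k) eS).trans y0.le)] at hc
    exact hc bot_le
  have n : ¬ sy A G 2 ≤ 𝒞(pCoreOf t M) := fun e => by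
    have k2 := h.h2.le_norm ht hM.toPQ (inf_le_right.trans e)
    rw [inf_eq_right.2 hSM] at k2
    refine hc (comm_eq_bot_iff.1 (eq_bot_iff.2 ?_))
    rw [← pq_bot p2 ht t2.symm h.pS hRt]
    exact le_inf ((commutator_mono eS le_rfl).trans (comm_le_left ((le_sup_left.trans k).trans k2)))
      (comm_le_right hER)
  have c0 : pCoreOf t M ≠ ⊥ := fun e => n (e ▸ cb _)
  have zA : 𝒵(sy A G t) ≤ 𝒞(A) := by
    by_contra hz
    exact hn (h.wd_both ht t2 hw hz hM (fun e => hn (h.wd2 ht t2 hw hM e)) c0)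
  have iZ := iT.cent iT
  have uT := Hy.le_sy (hM.pcore t) (Amb.isPGroup_pCoreOf t M)
  have z0 := z_ne ht pT fun e => hn (e ▸ bot_le)
  have k3 : sy A G 2 ⊓ 𝒞(𝒵(sy A G t)) ≤ M' := h.le_of_syl ht p2 t2 hM'.symm hTM
    (iZ.pql ht (pg_inf pT _) 2) z0 (norm_center (le_norm_self _))
    ((h.iS.cent iZ).pqr p2 (pg_inf h.pS _) t) (inf_le_right.trans (cent_le_norm _))
  have k4 := pq_split p2 ht t2.symm h.pS (pg_inf pT (𝒞(sy A G t)))
    ((le_inf iZ.le zA).trans (h.c_norm p2))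
  rw [eq_bot_iff.2 ((le_inf k3 inf_le_left).trans y0.le), sup_bot_eq] at k4
  refine n (k4.trans (comm_eq_bot_iff.1 (three ?_ ?_)))
  · rw [comm_eq_bot_iff.2 (inf_le_right.trans (cent_anti uT)), commutator_bot_left]
  · exact comm_bot'.2 (inf_le_right.trans (cent_anti
      ((comm_le_left (hSM.trans (Amb.le_normalizer_pCoreOf t M))).trans uT)))

theorem wd3 (hw : Wd A G t) (hM : Mx A G 2 t M) (hSM : sy A G 2 ≤ M) : sy A G t ≤ M := by
  by_contra hn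
  have p2 := Nat.prime_two
  haveI := Fact.mk ht
  haveI := Fact.mk p2
  have k := h.h2
  have iT := h.sy_iv ht
  have pT := h.sy_pg ht
  have iS := h.iS
  have pS := h.pS
  obtain ⟨M', hM', hTM⟩ := ex_mx (h.qT ht t2)
  have d0 : ∀ K, Mx A G 2 t K → K ≤ M ∨ K ≤ M' := fun K hK => by
    by_cases e : pCoreOf 2 K = ⊥
    · exact Or.inr (h.uniq ht p2 t2 hM'.symm hTM hK.toPQ.symm (h.wd2 ht t2 hw hK e))
    · exact Or.inl (h.uniq p2 ht t2.symm hM hSM hK.toPQ (h.le_of_two ht t2 hK e))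
  have di : ∀ N, Iv A G N → Group.IsSolvable N → (∀ X, PQ A G 2 t X → X ≤ N → X ≤ M) ∨
      ∀ X, PQ A G 2 t X → X ≤ N → X ≤ M' := fun N hN hs => by
    obtain ⟨K, hK, e⟩ := h.ex_loc p2 ht t2.symm hN hs
    exact (d0 K hK).imp (fun l X hX hl => (e X hX hl).trans l) fun l X hX hl => (e X hX hl).trans l
  have y0 := h.wd_y ht t2 hw hM hSM hn hM' hTM fun X hX => by
    obtain ⟨K, hK, e⟩ := ex_mx hX
    exact (d0 K hK).imp e.trans e.trans
  have sM : ¬ sy A G 2 ≤ M' := fun e => hn (hTM.trans (h.uniq p2 ht t2.symm hM hSM hM'.toPQ e))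
  have iY := hM'.inf iS.n
  have f := k.fa1 hM'.toIv (hM'.solv p2 ht)
  have l0 := fun B => h.l_ne (B := B)
  have lM := fun D X => h.le_of_syl p2 ht t2.symm hM hSM (D := D) (X := X)
  set S := sy A G 2
  set T := sy A G t
  have pY : IsPGroup 2 ↥(M' ⊓ S) := pS.to_le inf_le_right
  have yM : M' ⊓ S ≤ M := inf_le_right.trans hSM
  have n1 : T ⊓ 𝒩(M' ⊓ S) ≤ M := by
    rcases di _ (h.top.norm iY) (h.locp p2 iY y0 pY) with e | e
    · exact e _ ((iT.norm iY).pqr ht (pg_inf pT _) 2) (inf_le_inf_right _ iT.le)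
    · exact absurd ((Amb.eq_of_inf_normalizer_le pS inf_le_right (le_inf (e _ ((iS.norm iY).pql p2
        (pg_inf pS _) t) (inf_le_inf_right _ iS.le)) inf_le_left)).ge.trans inf_le_left) sM
  have iU := hM'.pcore t
  have pU := Amb.isPGroup_pCoreOf t M'
  have uT := Hy.le_sy iU pU
  have nU := Amb.le_normalizer_pCoreOf t M'
  have n2 : ¬ pCoreOf t M' ≤ M := fun e => hn (by
    have := le_inf (hTM.trans (f.trans (sup_le_sup_right (hM'.oc_le ht) _))) (le_refl T)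
    rw [sup_inf_modular (Or.inl (inf_le_left.trans nU)) uT] at this
    exact this.trans (sup_le e ((le_inf inf_le_right (inf_le_left.trans inf_le_right)).trans n1)))
  have yU : M' ⊓ S ≤ 𝒩(pCoreOf t M') := inf_le_left.trans nU
  set Y := M' ⊓ S with hY
  set U := pCoreOf t M'
  have i0 := iU.inf hM.n
  have i1 := iU.norm i0
  have n3 : ¬ U ⊓ 𝒩(U ⊓ M) ≤ U ⊓ M := (Amb.lt_inf_normalizer pU (inf_lt_left.2 n2)).not_ge
  have y1 : Y ≤ 𝒩(U ⊓ M) := norm_inf yU (yM.trans (le_norm_self M))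
  have y2 : Y ≤ 𝒩(U ⊓ 𝒩(U ⊓ M)) := norm_inf yU (norm_norm y1)
  have p1 : IsPGroup t ↥(U ⊓ 𝒩(U ⊓ M)) := pg_inf pU _
  have u1 : U ⊓ 𝒩(U ⊓ M) ≤ U := inf_le_left
  have u2 : U ⊓ 𝒩(U ⊓ M) ≤ 𝒩(U ⊓ M) := inf_le_right
  set U₁ := U ⊓ 𝒩(U ⊓ M)
  have key : ∀ F ≤ Y, U₁ ⊓ 𝒞(F) ≤ M → ¬ F ≤ centMod U₁ (U ⊓ M) := fun F h1 h2 h3 =>
    n3 ((pq_split ht p2 t2 p1 (pY.to_le h1) (h1.trans y2)).trans
      (sup_le (cm_le h3) (le_inf (inf_le_left.trans u1) h2)))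
  have pj : ∀ D, Ln r A D → ¬ Y ⊓ 𝒞(D) ≤ centMod U₁ (U ⊓ M) → ∀ D', Ln r A D' → D' ≠ D →
      S ⊓ 𝒞(D') ≤ Y := fun D hD hc D' hD' e => by
    have iE := h.cl iY hD.le
    rcases di _ (h.cl h.top hD'.le) (h.solC hD') with e' | e'
    · refine absurd ((le_cm (inf_le_left.trans y1)).2 ((commutator_mono le_rfl
        (h.two_star iE (pg_inf pY _))).trans (k.r2 ht p2 t2 hD hD' e.symm i1 iE p1 (pg_inf pY _)
        (inf_le_left.trans y2) u2 (inf_le_left.trans y1) i0.n inf_le_right ?_))) hc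
      exact le_inf (inf_le_left.trans u1) (e' _ ((h.cl i1 hD'.le).pqr ht (pg_inf p1 _) 2)
        (inf_le_inf_right _ i1.le))
    · exact le_inf (e' _ ((h.cl iS hD'.le).pql p2 (pg_inf pS _) t) (inf_le_inf_right _ iS.le))
        inf_le_left
  obtain ⟨D, hD, hc⟩ := k.ex_ln iY (key Y le_rfl
    ((inf_le_inf (u1.trans uT) (cent_le_norm Y)).trans n1))
  have l1 : ⁅S, D⁆ ≤ Y ⊓ centMod U₁ (U ⊓ M) := k.gen_star p2 iS pS hD fun D' hD' e => by
    have e1 := pj D hD hc D' hD' e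
    refine (h.star_le (h.cl iS hD'.le) le_rfl).trans (le_inf e1 ?_)
    by_contra e2
    refine sM ((k.gen iS fun D₂ hD₂ => ?_).trans (inf_le_left (b := S)))
    by_cases e3 : D₂ = D'
    · exact e3 ▸ e1
    · exact pj D' hD' (fun e4 => e2 ((le_inf e1 inf_le_right).trans e4)) D₂ hD₂ e3
  have iL := h.star iS hD.le
  exact key _ (l1.trans inf_le_left) (lM _ _ (iL.pql p2 (pg_comm pS (hD.le.trans iS.n)) t) (l0 D hD)
    (norm_comm_l S D) ((i1.cent iL).pqr ht (pg_inf p1 _) 2) (inf_le_right.trans (cent_le_norm _)))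
    (l1.trans inf_le_right)

/-- If `S T ≠ T S` then `M₂` is `2`-closed and contains all `{2, t}`-subgroups of even order. -/
theorem bad (hM : Mx A G 2 t M) (hSM : sy A G 2 ≤ M) (hn : ¬ sy A G t ≤ M) :
    M ≤ 𝒩(sy A G 2) ∧ ∀ N, Iv A G N → Group.IsSolvable N → N ⊓ sy A G 2 ≠ ⊥ →
      ∀ X, PQ A G 2 t X → X ≤ N → X ≤ M := by
  have p2 := Nat.prime_two
  have nw : ∀ K, PQ A G 2 t K → K ⊓ sy A G 2 ≤ 𝒞(pCoreOf t K) := fun K hK => by
    by_contra e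
    exact hn (h.wd3 ht t2 ⟨_, _, hK.inf h.iS.n, hK.pcore t, h.pS.to_le inf_le_right,
      Amb.isPGroup_pCoreOf t K, inf_le_left.trans (Amb.le_normalizer_pCoreOf t K), e⟩ hM hSM)
  refine ⟨?_, fun N hN hs h0 X hX hl => ?_⟩
  · have := h.h2.le_norm ht hM.toPQ (nw M hM.toPQ)
    rwa [inf_eq_right.2 hSM] at this
  obtain ⟨K, hK, e⟩ := h.ex_loc p2 ht t2.symm hN hs
  refine (e X hX hl).trans (h.uniq p2 ht t2.symm hM hSM hK.toPQ (h.le_of_two ht t2 hK fun e' => h0 ?_))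
  have := hK.cent_core p2 ht inf_le_left (h.pS.to_le (inf_le_right (a := K))) (e' ▸ cb _) (nw K hK.toPQ)
  rw [e'] at this
  exact eq_bot_iff.2 ((le_inf (e _ ((hN.inf h.iS.n).pql p2 (h.pS.to_le inf_le_right) t) inf_le_left)
    inf_le_right).trans this)

end Mg

end Cfsg.Agent.MP
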