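import Mathlib
import Cfsg.Agent.MP.Two

/-! S1917: the invariant Sylow `2`-subgroup permutes with all invariant Sylow subgroups. -/

set_option autoImplicit false
set_option linter.unusedSectionVars false
set_option linter.unusedVariables false

namespace Cfsg.Agent.MP

open Cfsg Cfsg.Agent.FT Cfsg.Agent.PLocal Subgroup
open Cfsg.Agent.PLocal.Amb (IsSyl)
open Cfsg.Agent.PLocal.CommMod (centMod)
open scoped commutatorElement Pointwise

universe u

variable {Γ : Type u} [Group Γ] [Finite Γ]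
variable {r p q t : ℕ} {A G X Y Z H B B' P Q E F W N U R K D M T : Subgroup Γ}

namespace Mg

variable (h : Mg r A G)
include h

theorem ex_pi : ∃ q M, q.Prime ∧ q ≠ 2 ∧ PQ A G 2 q M ∧ sy A G 2 ≤ M ∧ sy A G q ≤ M ∧
    ¬ sy A G 2 ≤ 𝒞(pCoreOf q M) := by
  by_contra hn
  push Not at hn
  refine h.c2 fun N hN hs => h.le_of_sy hN fun q hq => ?_
  by_cases q2 : q = 2
  · rw [q2]; exact le_norm_self _
  by_cases e : N ⊓ sy A G 2 = ⊥
  · rw [e]; exact nb _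
  refine norm_inf (inf_le_left.trans (le_norm_self N)) ?_
  obtain ⟨M, hM, hSM⟩ := ex_mx (h.qS q)
  by_cases hQ : sy A G q ≤ M
  · have := h.h2.le_norm hq hM.toPQ (inf_le_right.trans (hn q M hq q2 hM.toPQ hSM hQ))
    rw [inf_eq_right.2 hSM] at this
    exact (inf_le_right.trans hQ).trans this
  · obtain ⟨k1, k2⟩ := h.bad hq q2 hM hSM hQ
    exact (k2 N hN hs e _ ((hN.inf (h.sy_iv hq).n).pqr hq ((h.sy_pg hq).to_le inf_le_right) 2)
      inf_le_left).trans k1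

/-- `[S, B]` centralizes `[U, F]` for `F ≤ C_{Z(S)}(B)`. -/
theorem lw (hq : q.Prime) (q2 : q ≠ 2) (hB : Ln r A B) (hU : Iv A G U) (hUq : IsPGroup q U)
    (hn : sy A G 2 ≤ 𝒩(U)) (hF : Iv A G F) (hz : F ≤ 𝒵(sy A G 2)) (hFB : F ≤ 𝒞(B)) :
    ⁅sy A G 2, B⁆ ≤ 𝒞(⁅U, F⁆) := by
  have p2 := Nat.prime_two
  have fS := hz.trans inf_le_left
  have pF := h.pS.to_le fS
  have iW := hU.comm hF
  have pW := pg_comm hUq (fS.trans hn)
  have nW : sy A G 2 ≤ 𝒩(⁅U, F⁆) :=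
    norm_comm hn (le_norm_of_le_cent (le_cent_comm.1 (hz.trans inf_le_right)))
  refine h.h2.w2' hq p2 q2 hB iW h.iS pW h.pS nW (le_trans (le_inf inf_le_left ?_)
    (pq_der hq p2 q2 pW pF (fS.trans nW) (pq_cc hq p2 q2 hUq pF (fS.trans hn))))
  exact le_cent_comm.1 ((h.two_star hF pF).trans (h.h2.f0 hq p2 q2 hB (h.cl iW hB.le) hF (pg_inf pW _)
    pF (norm_inf (fS.trans nW) (hFB.trans (le_norm_self _))) hFB inf_le_right))

theorem perm0 (ht : t.Prime) (t2 : t ≠ 2) (hM : Mx A G 2 t M) (hSM : sy A G 2 ≤ M) : sy A G t ≤ M := by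
  by_contra hn
  have p2 := Nat.prime_two
  have k := h.h2
  obtain ⟨-, b⟩ := h.bad ht t2 hM hSM hn
  obtain ⟨q, L, hq, q2, hL, hSL, hQL, hc⟩ := h.ex_pi
  have qt : t ≠ q := by
    rintro rfl
    exact hn (hQL.trans (h.uniq p2 ht t2.symm hM hSM hL hSL))
  have iT := h.sy_iv ht
  have pT := h.sy_pg ht
  have iS := h.iS
  have pS := h.pS
  have s0 := h.s_ne
  have zS := h.zS
  have l0 := fun B => h.l_ne (B := B)
  have cM : sy A G t ⊓ 𝒞(A) ≤ M := le_sup_right.trans (h.uniq p2 ht t2.symm hM hSM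
    ((h.qS t).sup ((h.cl iT le_rfl).pqr ht (pg_inf pT _) 2)
      ((inf_le_inf_right _ iT.le).trans (h.c_norm p2))) le_sup_left)
  have lw := fun B U F => h.lw hq q2 (B := B) (U := U) (F := F)
  set S := sy A G 2
  set T := sy A G t
  obtain ⟨D, hD, d0⟩ : ∃ D, Ln r A D ∧ ¬ ⁅T ⊓ 𝒞(D), A⁆ ≤ M := by
    by_contra e
    push Not at e
    exact hn (k.gen' iT cM e)
  have iX := h.star (h.cl iT hD.le) le_rfl
  have qX := iX.pqr ht (pg_comm (pg_inf pT _) (h.cl iT hD.le).n) 2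
  have sD : S ⊓ 𝒞(D) = ⊥ := by
    by_contra e
    exact d0 (b _ (h.cl h.top hD.le) (h.solC hD) (fun e' => e (eq_bot_iff.2 (le_trans
      (le_inf (inf_le_inf_right _ iS.le) inf_le_left) e'.le))) _ qX
      (le_inf iX.le ((h.star_le (h.cl iT hD.le) le_rfl).trans inf_le_right)))
  have iU := hL.pcore q
  have pU := Amb.isPGroup_pCoreOf q L
  have nU := hSL.trans (Amb.le_normalizer_pCoreOf q L)
  set U := pCoreOf q L
  have c2 : ∀ Y, Iv A G Y → Y ≠ ⊥ → Y ≤ S → S ≤ 𝒩(Y) → S ≤ 𝒞(U ⊓ 𝒞(Y)) := fun Y iY y0 yS nY =>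
    k.gen iS fun B hB => by
      by_cases e : B = D
      · rw [e, sD]; exact bot_le
      have iR := iU.cent iY
      have iE := h.cl iS hB.le
      have nR : S ⊓ 𝒞(B) ≤ 𝒩(U ⊓ 𝒞(Y)) := inf_le_left.trans (norm_inf nU (norm_cent nY))
      refine comm_bot'.1 (k.w1' hq p2 q2 hB hD e iR iE (pg_inf pU _) (pg_inf pS _) nR inf_le_right
        (h.two_star iE (pg_inf pS _)) ?_)
      by_contra e0
      have iV := iR.comm iE
      have pV := pg_comm (pg_inf pU (𝒞(Y))) nR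
      have iE' := h.star (h.cl iV hD.le) le_rfl
      have l1 := ((h.star_le (h.cl iV hD.le) le_rfl).trans inf_le_left).trans (comm_le_left nR)
      refine d0 (b _ (h.top.norm iE') (h.locp hq iE' e0 (pU.to_le (l1.trans inf_le_left)))
        (fun e' => y0 (eq_bot_iff.2 (le_trans (le_inf (le_inf iY.le (le_norm_of_le_cent
          (le_cent_comm.1 (l1.trans inf_le_right)))) yS) e'.le))) _ qX
        (le_inf iX.le (le_norm_of_le_cent (k.f2 ht hq qt hD (h.solC hD) iT pT iV pV))))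
  have iZ := iS.cent iS
  obtain ⟨B, hB, z0⟩ := k.ex_ln (K := ⊥) iZ fun e => z_ne p2 pS s0 (eq_bot_iff.2 e)
  have iF := h.cl iZ hB.le
  have fz : 𝒵(S) ⊓ 𝒞(B) ≤ 𝒵(S) := inf_le_left
  have e1 := lw B U _ hB iU pU nU iF fz inf_le_right
  have e2 := c2 _ (h.star iS hB.le) (l0 B hB) (h.star_le iS hB.le) (norm_comm_l S B)
  have e3 := c2 _ iF (fun e => z0 e.le) (fz.trans inf_le_left)
    (le_norm_of_le_cent (le_cent_comm.1 (fz.trans inf_le_right)))
  have fS := fz.trans inf_le_left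
  refine hc (le_cent_comm.1 ((pq_split hq p2 q2 pU (pS.to_le fS) (fS.trans nU)).trans
    (sup_le ?_ (le_cent_comm.1 e3))))
  exact (le_inf (comm_le_left (fS.trans nU)) (le_cent_comm.1 e1)).trans (le_cent_comm.1 e2)

theorem perm (ht : t.Prime) (t2 : t ≠ 2) : PQ A G 2 t (sy A G 2 ⊔ sy A G t) := by
  obtain ⟨M, hM, hSM⟩ := ex_mx (h.qS t)
  exact hM.sub (h.iS.sup (h.sy_iv ht)) (sup_le hSM (h.perm0 ht t2 hM hSM))

end Mg

/-- `[O, F]` is generated by the groups `[O_q, F]`. -/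
theorem Hy.comm_le_of_sy (h : Hy r A G) {O : Subgroup Γ} (hO : Iv A G O) (hs : Group.IsSolvable O)
    (hF : Iv A G F) (hc : (Nat.card F).Coprime (Nat.card O)) (hAK : A ≤ 𝒩(K)) (hFK : F ≤ 𝒩(K))
    (hn : ∀ q : ℕ, q.Prime → F ≤ 𝒩(O ⊓ sy A G q))
    (hK : ∀ q : ℕ, q.Prime → ⁅O ⊓ sy A G q, F⁆ ≤ K) : ⁅O, F⁆ ≤ K := by
  have i1 := hO.inf hAK
  have i2 := hO.cent hF
  have i3 := i1.inf i2.n
  have pos : ∀ X : Subgroup Γ, Nat.card X ≠ 0 := fun X => Nat.card_pos.ne'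
  have k := Grp.coe_eq_mul_of_card_le (H := O ⊓ K) (K := O ⊓ 𝒞(F)) (L := O) inf_le_left inf_le_left
    (Nat.le_of_dvd (Nat.pos_of_ne_zero (mul_ne_zero (pos _) (pos _))) (by
      rw [← Nat.factorization_prime_le_iff_dvd (mul_ne_zero (pos _) (pos _))
        (mul_ne_zero (pos _) (pos _)), Nat.factorization_mul (pos _) (pos _),
        Nat.factorization_mul (pos _) (pos _)]
      intro q hq
      haveI := Fact.mk hq
      rw [Finsupp.add_apply, Finsupp.add_apply, ← Nat.pow_le_pow_iff_right hq.one_lt, pow_add, pow_add,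
        ← (h.syl hq i1).card_eq_pow, ← (h.syl hq i2).card_eq_pow, ← (h.syl hq i3).card_eq_pow,
        ← (h.syl hq hO).card_eq_pow, mul_comm (Nat.card ↥(O ⊓ K ⊓ sy A G q)),
        Grp.card_mul_card_eq (O ⊓ 𝒞(F) ⊓ sy A G q)]
      refine Nat.mul_le_mul (card_le_card_of_le (le_inf (inf_le_inf_right _ inf_le_right)
        (inf_le_inf_right _ inf_le_left))) (Nat.card_mono (Set.toFinite _) fun x hx => ?_)
      obtain ⟨c, hc', d, hd, rfl⟩ := Solv.coprime_exists_centralizer_mul_commutator F (O ⊓ sy A G q)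
        (hn q hq) (FH.cop_le hc le_rfl inf_le_left) (Or.inr (isSolvable_of_le inf_le_left hs)) x hx
      have hd' := comm_le_left (hn q hq) hd
      exact ⟨c, ⟨⟨hc'.1.1, hc'.2⟩, hc'.1.2⟩, d, ⟨⟨hd'.1, hK q hq hd⟩, hd'.2⟩, rfl⟩))
  refine commutator_le.2 fun x hx z hz => ?_
  obtain ⟨a, ha, c, hc', rfl⟩ := Set.mem_mul.1
    (k ▸ hx : x ∈ ((O ⊓ K : Subgroup Γ) : Set Γ) * (O ⊓ 𝒞(F) : Subgroup Γ))
  have e : ⁅a * c, z⁆ = a * (z * a⁻¹ * z⁻¹) := by
    rw [commutatorElement_def, mul_assoc a c z, ← mem_cent_iff.1 hc'.2 z hz]; group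
  rw [e]
  exact mul_mem ha.2 (Amb.conj_mem_of_mem_normalizer (hFK hz) (inv_mem ha.2))

end Cfsg.Agent.MP
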