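import Mathlib
import Cfsg.Agent.MP.NoBad

/-! S1917: the final contradiction in rank two. -/

set_option autoImplicit false
set_option linter.unusedSectionVars false
set_option linter.unusedVariables false

namespace Cfsg.Agent.MP

open Cfsg Cfsg.Agent.FT Cfsg.Agent.PLocal Subgroup
open Cfsg.Agent.PLocal.Amb (IsSyl)
open Cfsg.Agent.PLocal.CommMod (centMod)
open scoped commutatorElement Pointwise

universe u

variable {Γ : Type u} [Group Γ]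

/-- `Ω₁(Z(S))`. -/
def zs (A G : Subgroup Γ) : Subgroup Γ := omegaOne 2 (𝒵(sy A G 2))

/-- `O_q(S Q)`. -/
def uq (A G : Subgroup Γ) (q : ℕ) : Subgroup Γ := pCoreOf q (sy A G 2 ⊔ sy A G q)

/-- `[O_q(S Q), C_Z(B)]`. -/
abbrev wq (A G : Subgroup Γ) (q : ℕ) (B : Subgroup Γ) : Subgroup Γ := ⁅uq A G q, zs A G ⊓ 𝒞(B)⁆

variable {r p q t : ℕ} {A G X Y Z H B B' P Q E F W N U R K D M T : Subgroup Γ}

theorem norm_iSup {ι : Sort*} {f : ι → Subgroup Γ} (h : ∀ i, X ≤ 𝒩(f i)) : X ≤ 𝒩(⨆ i, f i) :=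
  le_normalizer_iff_cj.2 fun g hg =>
    (Amb.cj_iSup g f).trans (iSup_congr fun i => cj_of_mem_normalizer (h i hg))

theorem cent_iSup {ι : Sort*} {f : ι → Subgroup Γ} (h : ∀ i, X ≤ 𝒞(f i)) : X ≤ 𝒞(⨆ i, f i) :=
  le_cent_comm.1 (iSup_le fun i => le_cent_comm.1 (h i))

/-- `E = [E, B]` acts trivially on a section centralized by `B`. -/
theorem tri (hZ : Z ≤ 𝒞(Z)) (hN : N ≤ Z) (hEZ : E ≤ 𝒩(Z)) (hEN : E ≤ 𝒩(N)) (hc : ⁅Z, B⁆ ≤ N)
    (hE : E ≤ ⁅E, B⁆) : ⁅Z, E⁆ ≤ N := by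
  rw [commutator_comm]
  refine (commutator_mono hE le_rfl).trans (CommMod.three_subgroups_mod hEN
    (le_norm_of_comm_le ((commutator_mono hN le_rfl).trans hc))
    (le_norm_of_le_cent (hZ.trans (cent_anti hN))) ?_
    ((commutator_mono (comm_le_left hEZ) le_rfl).trans hc))
  rw [commutator_comm B]
  exact (commutator_mono hc le_rfl).trans (comm_le_left hEN)

variable [Finite Γ]

namespace Mg

variable (h : Mg r A G)
include h

theorem iZ : Iv A G (zs A G) := (h.iS.cent h.iS).omega 2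

omit h in
theorem zz : zs A G ≤ 𝒵(sy A G 2) := omegaOne_le _

omit h in
theorem zle : zs A G ≤ sy A G 2 := zz.trans inf_le_left

omit h in
theorem sz : sy A G 2 ≤ 𝒞(zs A G) := le_cent_comm.1 (zz.trans inf_le_right)

omit h in
theorem zc : zs A G ≤ 𝒞(zs A G) := zle.trans sz

omit h in
theorem nz : 𝒩(sy A G 2) ≤ 𝒩(zs A G) :=
  (norm_center le_rfl).trans (normalizer_le_normalizer_omegaOne _)

theorem pZ : IsPGroup 2 (zs A G) := h.pS.to_le zle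

theorem z0 : zs A G ≠ ⊥ :=
  haveI := Fact.mk Nat.prime_two
  omegaOne_ne_bot_of_isPGroup (pg_inf h.pS _) (z_ne Nat.prime_two h.pS h.s_ne)

theorem iU (hq : q.Prime) : Iv A G (uq A G q) := (h.iS.sup (h.sy_iv hq)).pcore q

omit h in
theorem pU : IsPGroup q (uq A G q) := Amb.isPGroup_pCoreOf q _

omit h in
theorem sU : sy A G 2 ≤ 𝒩(uq A G q) := le_sup_left.trans (Amb.le_normalizer_pCoreOf q _)

omit h in
theorem qU : sy A G q ≤ 𝒩(uq A G q) := le_sup_right.trans (Amb.le_normalizer_pCoreOf q _)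

omit h in
theorem zU (B : Subgroup Γ) : zs A G ⊓ 𝒞(B) ≤ 𝒩(uq A G q) := (inf_le_left.trans zle).trans sU

omit h in
theorem wU (B : Subgroup Γ) : wq A G q B ≤ uq A G q := comm_le_left (zU B)

omit h in
theorem pW (B : Subgroup Γ) : IsPGroup q (wq A G q B) := pU.to_le (wU B)

omit h in
theorem sW (B : Subgroup Γ) : sy A G 2 ≤ 𝒩(wq A G q B) :=
  norm_comm sU (le_norm_of_le_cent (sz.trans (cent_anti inf_le_left)))

theorem iW (hq : q.Prime) (hB : Ln r A B) : Iv A G (wq A G q B) := (h.iU hq).comm (h.cl h.iZ hB.le)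

theorem cW (hq : q.Prime) (hB : Ln r A B) : G ⊓ 𝒞(A) ≤ 𝒩(wq A G q B) :=
  norm_comm ((norm_sup (h.c_norm Nat.prime_two) (h.c_norm hq)).trans
    (Amb.normalizer_le_normalizer_pCoreOf q _)) (norm_inf ((h.c_norm Nat.prime_two).trans nz)
    ((inf_le_right.trans (cent_anti hB.le)).trans (le_norm_self _)))

theorem wc (hq : q.Prime) (q2 : q ≠ 2) (B : Subgroup Γ) : wq A G q B ≤ ⁅wq A G q B, zs A G ⊓ 𝒞(B)⁆ :=
  pq_cc hq Nat.prime_two q2 pU (pg_inf h.pZ _) (zU B)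

theorem lW (hq : q.Prime) (q2 : q ≠ 2) (hB : Ln r A B) : ⁅sy A G 2, B⁆ ≤ 𝒞(wq A G q B) :=
  h.lw hq q2 hB (h.iU hq) pU sU (h.cl h.iZ hB.le) (inf_le_left.trans zz) inf_le_right

theorem zlW (hq : q.Prime) (q2 : q ≠ 2) (hB : Ln r A B) : ⁅zs A G, B⁆ ≤ 𝒞(wq A G q B) :=
  (commutator_mono zle le_rfl).trans (h.lW hq q2 hB)

theorem zW (hq : q.Prime) (q2 : q ≠ 2) (hB : Ln r A B) (hB' : Ln r A B') (e : B' ≠ B) :
    zs A G ⊓ 𝒞(B') ≤ 𝒞(wq A G q B) :=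
  ((h.two_star (h.cl h.iZ hB'.le) (pg_inf h.pZ _)).trans ((h.h2.star_eq hB' hB e inf_le_right).trans
    (commutator_mono inf_le_left le_rfl))).trans (h.zlW hq q2 hB)

theorem clW (hq : q.Prime) (q2 : q ≠ 2) (hB : Ln r A B) (hB' : Ln r A B') (e : B ≠ B')
    (hX : Iv A G X) (h1 : zs A G ⊓ 𝒞(B) ≤ 𝒞(X)) (h2 : ⁅wq A G q B ⊓ 𝒞(B'), A⁆ ≤ 𝒞(X)) :
    wq A G q B ≤ 𝒞(X) :=
  h.h2.clo hq Nat.prime_two q2 hB hB' e (h.iW hq hB) (h.cl h.iZ hB.le) (pW B) (pg_inf h.pZ _)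
    (norm_comm_r _ _) inf_le_right (h.two_star (h.cl h.iZ hB.le) (pg_inf h.pZ _)) (h.wc hq q2 B)
    (h1.trans (le_norm_self _)) (norm_cent hX.n) h2

theorem ww (hq : q.Prime) (q2 : q ≠ 2) (ht : t.Prime) (t2 : t ≠ 2) (hB : Ln r A B) (hB' : Ln r A B')
    (e : B ≠ B') : wq A G q B ≤ 𝒞(wq A G t B') := by
  have k1 := h.zW ht t2 hB' hB e
  by_cases qt : q = t
  · subst qt
    refine (h.wc hq q2 B).trans (comm_eq_bot_iff.1 (three ?_ ?_))
    · rw [comm_eq_bot_iff.2 k1, commutator_bot_left]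
    · exact comm_bot'.2 (k1.trans (cent_anti (comm_le_left ((wU B).trans (norm_comm_l _ _)))))
  obtain ⟨D, hD, e1, e2⟩ := h.h2.third hB hB'
  have i := h.cl (h.iW ht hB') hD.le
  have l := (h.star_le i le_rfl).trans inf_le_left
  have k2 := h.clW hq q2 hB hD e1.symm (h.star i le_rfl) (k1.trans (cent_anti l))
    (h.h2.f2 hq ht qt hD (h.solC hD) (h.iW hq hB) (pW B) (h.iW ht hB') (pW B'))
  exact le_cent_comm.1 (h.clW ht t2 hB' hD e2.symm (h.iW hq hB) (h.zW hq q2 hB hB' e.symm)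
    (le_cent_comm.1 k2))

theorem gen_G (h1 : G ⊓ 𝒩(sy A G 2) ≤ K)
    (h2 : ∀ q : ℕ, q.Prime → q ≠ 2 → uq A G q ⊓ 𝒞(zs A G) ≤ K)
    (h3 : ∀ q : ℕ, q.Prime → q ≠ 2 → ∀ B, Ln r A B → wq A G q B ≤ K) : G ≤ K := by
  have p2 := Nat.prime_two
  refine h.le_of_sy h.top fun q hq => inf_le_right.trans ?_
  by_cases q2 : q = 2
  · rw [q2]; exact (le_inf h.iS.le (le_norm_self _)).trans h1
  haveI := Fact.mk p2
  have hH := h.perm hq q2
  have f := h.h2.fa1 hH.toIv (hH.solv p2 hq)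
  rw [inf_eq_right.2 (le_sup_left : sy A G 2 ≤ _)] at f
  have f2 := le_inf (le_sup_right.trans (f.trans (sup_le_sup_right (hH.oc_le hq) _))) (le_refl (sy A G q))
  rw [sup_inf_modular (Or.inl (inf_le_left.trans (Amb.le_normalizer_pCoreOf q _)))
    (Hy.le_sy (hH.pcore q) (Amb.isPGroup_pCoreOf q _))] at f2
  refine f2.trans (sup_le ?_ ((inf_le_left.trans (inf_le_inf_right _ hH.le)).trans h1))
  refine (pq_split hq p2 q2 pU h.pZ (zle.trans sU)).trans (sup_le ?_ (h2 q hq q2))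
  have n : zs A G ≤ 𝒩(⨆ B : {B // Ln r A B}, wq A G q B) := norm_iSup fun B => zle.trans (sW _)
  refine le_trans (cm_le (h.h2.gen h.iZ fun B hB => (le_cm (inf_le_left.trans n)).2
    (le_iSup (fun B : {B // Ln r A B} => wq A G q B) ⟨B, hB⟩))) (iSup_le fun B => h3 q hq q2 B B.2)

theorem gen_N (h1 : sy A G 2 ≤ K) (h2 : G ⊓ 𝒞(A) ≤ K)
    (h3 : ∀ t : ℕ, t.Prime → t ≠ 2 → ∀ E B, Ln r A B → Iv A G E → IsPGroup t E → E ≤ 𝒩(sy A G 2) →
      E ≤ 𝒞(B) → E ≤ ⁅E, A⁆ → E ≤ K) : G ⊓ 𝒩(sy A G 2) ≤ K := by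
  have i := h.top.norm h.iS
  refine h.le_of_sy i fun t ht => ?_
  by_cases t2 : t = 2
  · rw [t2]; exact inf_le_right.trans h1
  have i1 := i.inf (h.sy_iv ht).n
  refine h.h2.gen' i1 ((inf_le_inf_right _ i1.le).trans h2) fun B hB => ?_
  have i2 := h.cl i1 hB.le
  have l := h.star_le i2 le_rfl
  exact h3 t ht t2 _ B hB (h.star i2 le_rfl) ((h.sy_pg ht).to_le ((l.trans inf_le_left).trans inf_le_right))
    (((l.trans inf_le_left).trans inf_le_left).trans inf_le_right) (l.trans inf_le_right) (h.cc i2 le_rfl)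

theorem hyp_ty (hq : q.Prime) (q2 : q ≠ 2) (hY : Sig.Hyp 2 Y (zs A G)) (hX : IsPGroup q X)
    (hXY : X ≤ 𝒞(Y)) (hc : X ≤ 𝒞(⁅zs A G, B⁆)) (hB : Ln r A B) (hn : ¬ X ≤ 𝒞(zs A G)) :
    ⁅zs A G, B⁆ ≤ Y := by
  haveI := Fact.mk Nat.prime_two
  by_contra e
  refine hn ?_
  rw [← hY.eq_of_lt (left_lt_sup.2 e) (sup_le hY.1 (h.star_le h.iZ hB.le)), cent_sup]
  exact le_inf hXY hc

theorem hyp_ex (hq : q.Prime) (q2 : q ≠ 2) (hY : Sig.Hyp 2 Y (zs A G))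
    (hn : ¬ uq A G q ⊓ 𝒞(Y) ≤ 𝒞(zs A G)) : ∃ B, Ln r A B ∧ ⁅zs A G, B⁆ ≤ Y := by
  obtain ⟨B, hB, k⟩ := h.h2.ex_ln h.iZ fun e => hn (le_cent_comm.1 e)
  have n : zs A G ⊓ 𝒞(B) ≤ 𝒩(uq A G q ⊓ 𝒞(Y)) := norm_inf (zU B)
    (((inf_le_left.trans zc).trans (cent_anti hY.1)).trans (le_norm_self _))
  refine ⟨B, hB, h.hyp_ty hq q2 hY (pg_comm (pg_inf pU _) n) ((comm_le_left n).trans inf_le_right)
    ((commutator_mono inf_le_left le_rfl).trans (le_cent_comm.1 (h.zlW hq q2 hB))) hB fun e => k ?_⟩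
  exact comm_bot'.1 (eq_bot_iff.2 ((pq_cc hq Nat.prime_two q2 (pg_inf pU _) (pg_inf h.pZ _) n).trans
    (comm_eq_bot_iff.2 (e.trans (cent_anti inf_le_left))).le))

theorem hyp_same (hE : Iv A G E) (hEZ : E ≤ 𝒩(zs A G)) (hY : Sig.Hyp 2 Y (zs A G)) (hB : Ln r A B)
    (hB' : Ln r A B') (h1 : ⁅zs A G, B⁆ ≤ Y) {e : Γ} (he : e ∈ E) (h2 : ⁅zs A G, B'⁆ ≤ cj e Y) :
    B = B' := by
  haveI := Fact.mk Nat.prime_two
  by_contra hne
  have c : ∀ X, ⁅zs A G, X⁆ ≤ Y → X ≤ centMod (zs A G) Y := fun X hX =>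
    (le_cm (le_norm_of_comm_le ((commutator_mono hY.1 le_rfl).trans hX))).2 hX
  have k1 : A ≤ E ⊔ (centMod (zs A G) Y ⊓ 𝒩(E)) := by
    refine (h.h2.ln_sup hB hB' hne).ge.trans (sup_le (le_sup_of_le_right (le_inf (c B h1) (hB.le.trans hE.n))) ?_)
    have k : cj e⁻¹ B' ≤ centMod (zs A G) Y ⊓ 𝒩(E) := le_inf (c _ (by
      rw [← cj_of_mem_normalizer (hEZ (inv_mem he)), ← cj_commutator]
      exact le_cj_iff_cj_inv_le.1 h2))
      (cj_le_of_mem (le_norm_self E (inv_mem he)) (hB'.le.trans hE.n))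
    refine (cj_cj_inv e B').ge.trans ?_
    exact cj_le_of_mem (le_sup_left (a := E) he) (k.trans le_sup_right)
  obtain ⟨f, hf, k2⟩ := Solv.exists_conj_mem_of_coprime A E (centMod (zs A G) Y) hE.n
    (h.cop le_rfl hE.le) (Or.inl (h.sA le_rfl)) fun a ha => by
      obtain ⟨x, hx, y, hy, rfl⟩ := (mem_sup_norm inf_le_right).1 (k1 ha)
      exact ⟨x, hx, by rw [inv_mul_cancel_left]; exact hy.1⟩
  have k3 : cj f⁻¹ A ≤ centMod (zs A G) Y := cj_le_iff.2 fun a ha => by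
    rw [inv_inv]; exact k2 a ha
  have k4 := cj_mono f⁻¹ (h.two_star h.iZ h.pZ)
  rw [cj_commutator, cj_of_mem_normalizer (hEZ (inv_mem hf))] at k4
  exact hY.ne (le_antisymm hY.1 (k4.trans (cm_le k3)))

theorem ze_le (ht : t.Prime) (t2 : t ≠ 2) (hD : Ln r A D) (hE : Iv A G E) (hEt : IsPGroup t E)
    (hES : E ≤ 𝒩(sy A G 2)) (hED : E ≤ 𝒞(D)) (hEA : E ≤ ⁅E, A⁆) (hq : q.Prime) (q2 : q ≠ 2)
    (hB : Ln r A B) : ⁅zs A G, E⁆ ≤ 𝒞(wq A G q B) := by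
  have p2 := Nat.prime_two
  haveI := Fact.mk p2
  have k := h.h2
  have eZ := hES.trans nz
  have iY := h.iZ.comm hE
  have yZ : ⁅zs A G, E⁆ ≤ zs A G := comm_le_left eZ
  by_cases e : D = B
  · subst e
    haveI : IsMulCommutative (zs A G) := abelian_iff.2 zc
    have y0 : ⁅zs A G, E⁆ ⊓ 𝒞(D) ≤ ⊥ := by
      rw [← Solv.coprime_centralizer_inf_commutator E (zs A G) eZ (FH.coprime_pgroup ht p2 t2 hEt h.pZ)]
      refine le_inf ((inf_le_inf_right _ yZ).trans (le_inf inf_le_left (le_cent_comm.1 (hEA.trans ?_))))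
        inf_le_left
      exact k.f0 p2 ht t2.symm hD (h.cl h.iZ hD.le) hE (pg_inf h.pZ _) hEt
        (norm_inf eZ (hED.trans (le_norm_self _))) hED inf_le_right
    exact ((h.sp iY hD.le).trans (sup_le (commutator_mono yZ le_rfl) (y0.trans bot_le))).trans
      (h.zlW hq q2 hD)
  have eB : E ≤ ⁅E, B⁆ := hEA.trans (k.star_eq hD hB e hED)
  have iW := h.iW hq hB
  refine le_cent_comm.1 ?_
  by_cases tq : t = q
  · subst tq
    have eU : E ≤ 𝒩(uq A G t) := (Hy.le_sy hE hEt).trans qU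
    refine Sig.le_of_hyp_le (omegaOne_center_isEA _) h.z0 (zle.trans (sW B))
      (FH.not_dvd_pgroup p2 ht t2.symm (pW B)) fun Y hY => ?_
    change Sig.Hyp 2 Y (zs A G) at hY
    by_cases c : wq A G t B ⊓ 𝒞(Y) ≤ 𝒞(zs A G)
    · exact c.trans (cent_anti yZ)
    have t1 := h.hyp_ty ht t2 hY (pg_inf (pW B) _) inf_le_right
      (inf_le_left.trans (le_cent_comm.1 (h.zlW ht t2 hB))) hB c
    have t3 : ∀ g : E, ⁅zs A G, B⁆ ≤ cj (g : Γ) Y := fun g => by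
      have ez := cj_of_mem_normalizer (eZ g.2)
      obtain ⟨B', hB', l⟩ := h.hyp_ex (Y := cj (g : Γ) Y) ht t2
        ⟨ez ▸ cj_mono _ hY.1, by rw [← ez, relIndex_cj]; exact hY.2⟩ fun e' => c (by
          rw [← cj_of_mem_normalizer (eU g.2), ← ez, ← cj_centralizer, ← cj_centralizer, ← cj_inf,
            cj_le_cj] at e'
          exact (inf_le_inf_right _ (wU B)).trans e')
      rwa [h.hyp_same hE eZ hY hB hB' t1 g.2 l]
    have l1 : (⨅ g : E, cj (g : Γ) Y) ≤ Y := (iInf_le _ 1).trans (cj_one Y).le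
    refine inf_le_right.trans (cent_anti ((tri zc (l1.trans hY.1) eZ (fun g hg =>
      mem_normalizer_of_cj_le (le_iInf fun x => ?_)) (le_iInf t3) eB).trans l1))
    refine (cj_mono g (iInf_le _ ⟨g⁻¹ * x, mul_mem (inv_mem hg) x.2⟩)).trans ?_
    rw [← cj_mul, mul_inv_cancel_left]
  have i := h.cl iW hD.le
  have b1 : E ≤ 𝒞(⁅wq A G q B ⊓ 𝒞(D), A⁆) := (hEA.trans (commutator_mono (le_inf le_rfl hED) le_rfl)).trans
    (k.f2 ht hq tq hD (h.solC hD) hE hEt iW (pW B))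
  refine h.clW hq q2 hB hD (Ne.symm e) iY ((inf_le_left.trans zc).trans (cent_anti yZ))
    (le_cent_comm.1 ((tri zc inf_le_left eZ (norm_inf eZ (b1.trans (le_norm_self _))) ?_ eB).trans
      inf_le_right))
  exact le_inf (h.star_le h.iZ hB.le) ((h.zlW hq q2 hB).trans
    (cent_anti ((h.star_le i le_rfl).trans inf_le_left)))

theorem ze (ht : t.Prime) (t2 : t ≠ 2) (hD : Ln r A D) (hE : Iv A G E) (hEt : IsPGroup t E)
    (hES : E ≤ 𝒩(sy A G 2)) (hED : E ≤ 𝒞(D)) (hEA : E ≤ ⁅E, A⁆) : E ≤ 𝒞(zs A G) := by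
  let ι := {x : ℕ × Subgroup Γ // x.1.Prime ∧ x.1 ≠ 2 ∧ Ln r A x.2}
  let Θ : Subgroup Γ := ⨆ x : ι, wq A G x.1.1 x.1.2
  have k : ∀ t : ℕ, t.Prime → t ≠ 2 → ∀ E B, Ln r A B → Iv A G E → IsPGroup t E → E ≤ 𝒩(sy A G 2) →
      E ≤ 𝒞(B) → E ≤ ⁅E, A⁆ → ⁅zs A G, E⁆ ≤ zs A G ⊓ 𝒞(Θ) := fun t ht t2 E B hB h1 h2 h3 h4 h5 =>
    le_inf (comm_le_left (h3.trans nz)) (cent_iSup fun x =>
      h.ze_le ht t2 hB h1 h2 h3 h4 h5 x.2.1 x.2.2.1 x.2.2.2)
  have i : Iv A G (zs A G ⊓ 𝒞(Θ)) :=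
    h.iZ.inf (norm_cent (norm_iSup fun x => (h.iW x.2.1 x.2.2.2).n))
  have c : 𝒞(zs A G) ≤ 𝒩(zs A G ⊓ 𝒞(Θ)) := le_norm_of_le_cent (cent_anti inf_le_left)
  have e := h.eq_bot Nat.prime_two i (pg_inf h.pZ _) (h.gen_G (h.gen_N (sz.trans c)
    (norm_inf ((h.c_norm Nat.prime_two).trans nz) (norm_cent (norm_iSup fun x => h.cW x.2.1 x.2.2.2)))
    fun t ht t2 E B hB h1 h2 h3 h4 h5 => le_norm_of_comm_le
      ((commutator_mono inf_le_left le_rfl).trans (k t ht t2 E B hB h1 h2 h3 h4 h5)))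
    (fun q _ _ => inf_le_right.trans c) fun q hq q2 B hB => le_norm_of_le_cent (le_cent_comm.1
      (inf_le_right.trans (cent_anti (le_iSup (fun x : ι => wq A G x.1.1 x.1.2) ⟨(q, B), hq, q2, hB⟩)))))
  exact comm_bot'.1 (eq_bot_iff.2 ((k t ht t2 E D hD hE hEt hES hED hEA).trans e.le))

theorem nN (hX : X ≤ zs A G) (hc : G ⊓ 𝒞(A) ≤ 𝒩(X)) : G ⊓ 𝒩(sy A G 2) ≤ 𝒩(X) :=
  h.gen_N (le_norm_of_le_cent (sz.trans (cent_anti hX))) hc fun t ht t2 E B hB h1 h2 h3 h4 h5 =>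
    le_norm_of_le_cent ((h.ze ht t2 hB h1 h2 h3 h4 h5).trans (cent_anti hX))

theorem w_bot (hB : Ln r A B) (hq : q.Prime) (q2 : q ≠ 2) : wq A G q B = ⊥ := by
  have p2 := Nat.prime_two
  haveI := Fact.mk p2
  haveI := Fact.mk h.pr
  have k := h.h2
  have iL := h.star h.iS hB.le
  have lS := h.star_le h.iS hB.le
  have iY := h.iZ.inf iL.n
  have y0 : zs A G ⊓ ⁅sy A G 2, B⁆ ≠ ⊥ := fun e => omegaOne_ne_bot_of_isPGroup
    (pg_inf (h.pS.to_le lS) _) (Amb.inf_centralizer_ne_bot h.pS (h.pS.to_le lS) (norm_comm_l _ B)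
      (h.l_ne hB)) (eq_bot_iff.2 ((le_inf (omegaOne_mono (inf_le_inf_right _ lS))
      ((omegaOne_le _).trans inf_le_left)).trans e.le))
  have cB : G ⊓ 𝒞(A) ≤ 𝒞(B) := inf_le_right.trans (cent_anti hB.le)
  have cZ := (h.c_norm p2).trans nz
  have n1 := h.nN inf_le_left (norm_inf cZ (norm_comm (h.c_norm p2) (le_norm_of_le_cent cB)))
  have n2 := h.nN inf_le_left (norm_inf cZ (cB.trans (le_norm_self _)))
  have iH := h.top.norm iY
  have hs := h.locp p2 iY y0 (pg_inf h.pZ _)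
  have wH : ∀ t : ℕ, t.Prime → t ≠ 2 → wq A G t B ≤ G ⊓ 𝒩(zs A G ⊓ ⁅sy A G 2, B⁆) := fun t ht t2 =>
    le_inf (h.iW ht hB).le (le_norm_of_le_cent (le_cent_comm.1 (inf_le_right.trans (h.lW ht t2 hB))))
  have cH : G ⊓ 𝒞(zs A G) ≤ G ⊓ 𝒩(zs A G ⊓ ⁅sy A G 2, B⁆) :=
    inf_le_inf_left _ (le_norm_of_le_cent (cent_anti inf_le_left))
  have nH := le_inf inf_le_left n1
  set H := G ⊓ 𝒩(zs A G ⊓ ⁅sy A G 2, B⁆)
  have sH : sy A G 2 ≤ H := (le_inf h.iS.le sz).trans cH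
  have iF := h.cl h.iZ hB.le
  have fS : zs A G ⊓ 𝒞(B) ≤ sy A G 2 := inf_le_left.trans zle
  have pF := h.pS.to_le fS
  have iO := iH.oc
  have sO := isSolvable_of_le (oc_le H) hs
  have nO : H ≤ 𝒩(oc H) := norm_oc (le_norm_self H)
  have wO : ∀ t : ℕ, t.Prime → t ≠ 2 → wq A G t B ≤ ⁅oc H, zs A G ⊓ 𝒞(B)⁆ := fun t ht t2 =>
    (h.wc ht t2 B).trans (commutator_mono (k.fa2 iH hs (wH t ht t2)
      (FH.not_dvd_pgroup p2 ht t2.symm (pW B)) (le_inf (fS.trans sH) fS) (h.wc ht t2 B)) le_rfl)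
  have co : (Nat.card (sy A G 2)).Coprime (Nat.card (oc H)) := Sig.cop_of_isPGroup h.pS (oc_odd H)
  have sn : ∀ t : ℕ, t.Prime → sy A G 2 ≤ 𝒩(oc H ⊓ sy A G t) := fun t ht => by
    haveI := Fact.mk ht
    obtain ⟨P, h1, h2⟩ := Sig.exists_invSyl (A := sy A G 2 ⊔ A) (sup_le (sH.trans nO) iO.n)
      ((co.mul_left (h.cop le_rfl iO.le)).coprime_dvd_left (B12.card_sup_dvd h.iS.n)) (Or.inr sO) t
    rw [h1.eq ((h.sy_pg ht).to_le inf_le_right) (le_inf h1.le (Hy.le_sy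
      ⟨h1.le.trans iO.le, le_sup_right.trans h2⟩ h1.pgrp)) inf_le_left]
    exact le_sup_left.trans h2
  let ι := {t : ℕ // t.Prime ∧ t ≠ 2}
  have om : ⁅oc H, zs A G ⊓ 𝒞(B)⁆ ≤ ⨆ t : ι, wq A G t B := by
    refine h.comm_le_of_sy iO sO iF (FH.cop_le co fS le_rfl) (norm_iSup fun t => (h.iW t.2.1 hB).n)
      (norm_iSup fun t => fS.trans (sW B)) (fun t ht => fS.trans (sn t ht)) fun t ht => ?_
    by_cases t2 : t = 2
    · rw [t2, inf_comm, Sig.inf_eq_bot_of_not_dvd h.pS (oc_odd H), commutator_bot_left]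
      exact bot_le
    have hM := h.perm ht t2
    have pO : IsPGroup t ↥(oc H ⊓ sy A G t) := (h.sy_pg ht).to_le inf_le_right
    have n := fS.trans (sn t ht)
    have c := pq_cc ht p2 t2 pO pF n
    refine c.trans ((commutator_mono ((k.fa2 hM.toIv (hM.solv p2 ht) (((comm_le_left n).trans
      inf_le_right).trans le_sup_right) (FH.not_dvd_pgroup p2 ht (Ne.symm t2) (pg_comm pO n))
      (le_inf (fS.trans le_sup_left) fS) c).trans (hM.oc_le ht)) le_rfl).trans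
      (le_iSup (fun t : ι => wq A G t B) ⟨t, ht, t2⟩))
  have oO : ⁅oc H, zs A G ⊓ 𝒞(B)⁆ ≤ oc H := comm_le_left ((fS.trans sH).trans nO)
  refine eq_bot_iff.2 ((wO q hq q2).trans ((h.nn _ (iO.comm iF) (h.gen_G (norm_comm (nH.trans nO) n2)
    (fun t ht t2 => norm_comm (((inf_le_inf_right _ (h.iU ht).le).trans cH).trans nO)
      (le_norm_of_le_cent (inf_le_right.trans (cent_anti inf_le_left))))
    fun t ht t2 B' hB' => ?_)).resolve_right fun e => h.ns (e ▸ isSolvable_of_le oO sO)).le)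
  by_cases e : B' = B
  · rw [e]; exact (wO t ht t2).trans (le_norm_self _)
  · exact le_norm_of_le_cent ((cent_iSup fun s : ι => h.ww ht t2 s.2.1 s.2.2 hB' hB e).trans
      (cent_anti om))

theorem false : False :=
  h.z0 (h.eq_bot Nat.prime_two h.iZ h.pZ (h.gen_G (inf_le_right.trans nz)
    (fun q _ _ => inf_le_right.trans (cent_le_norm _)) fun q hq q2 B hB => by
      rw [h.w_bot hB hq q2]; exact bot_le))

end Mg

end Cfsg.Agent.MP
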